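import Mathlib

/-!
# Finite facts about the alternating groups of degree 4 and 5
-/

set_option autoImplicit false
set_option linter.unusedVariables false
set_option maxRecDepth 100000
set_option synthInstance.maxSize 1000
set_option synthInstance.maxHeartbeats 200000

namespace Cfsg.Agent.Lib.CJ2Am

/-- The facts about `A` used in the analysis of a centraliser `⟨J⟩ × A`. -/
structure AFacts (A : Type*) [Group A] : Prop where
  pow8 : ∀ a : A, a ^ 8 = 1 → a ^ 2 = 1
  cent : ∀ v : A, v ^ 2 = 1 → v ≠ 1 → ∀ x : A, x * v = v * x → x ^ 4 = 1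
  klein : ∀ a : A, a ^ 2 = 1 → a ≠ 1 → ∀ b : A, b ^ 2 = 1 → b ≠ 1 → a ≠ b → a * b = b * a →
    ∀ x : A, x * a = a * x → x * b = b * x → x = 1 ∨ x = a ∨ x = b ∨ x = a * b
  rot : ∀ a : A, a ^ 2 = 1 → a ≠ 1 → ∀ b : A, b ^ 2 = 1 → b ≠ 1 → a ≠ b → a * b = b * a →
    ∃ y : A, y ^ 3 = 1 ∧ y * a * y⁻¹ = b ∧ y * b * y⁻¹ = a * b

theorem afacts_four : AFacts (alternatingGroup (Fin 4)) where
  pow8 := by decide +kernel
  cent := by decide +kernel
  klein := by decide +kernel
  rot := by decide +kernel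

theorem afacts_five : AFacts (alternatingGroup (Fin 5)) where
  pow8 := by decide +kernel
  cent := by decide +kernel
  klein := by decide +kernel
  rot := by decide +kernel

theorem card_four : Nat.card (alternatingGroup (Fin 4)) = 12 := by
  rw [Nat.card_eq_fintype_card]
  decide +kernel

theorem card_five : Nat.card (alternatingGroup (Fin 5)) = 60 := by
  rw [Nat.card_eq_fintype_card]
  decide +kernel

theorem four_pow_six : ∀ a : alternatingGroup (Fin 4), a ^ 6 = 1 := by decide +kernel

/-- In `A₄` the Klein four-group is normal. -/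
theorem four_normal : ∀ a : alternatingGroup (Fin 4), a ^ 2 = 1 → a ≠ 1 →
    ∀ b : alternatingGroup (Fin 4), b ^ 2 = 1 → b ≠ 1 → a ≠ b → a * b = b * a →
    ∀ x : alternatingGroup (Fin 4), x * a * x⁻¹ = a ∨ x * a * x⁻¹ = b ∨ x * a * x⁻¹ = a * b := by
  decide +kernel

end Cfsg.Agent.Lib.CJ2Am
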