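import Cfsg.Agent.Lib.CJ2Am.Local
import Cfsg.Agent.S1644

/-!
# The case `m = 5`
-/

set_option autoImplicit false
set_option linter.style.haveILetI false
set_option linter.unusedSectionVars false
set_option linter.unusedVariables false

namespace Cfsg.Agent.Lib.CJ2Am

variable {G : Type*} [Group G] [Finite G]
variable {J : G} {T : Subgroup G} {φ : T ≃* alternatingGroup (Fin 5)} {P : Sylow 2 G}

theorem five_T_le (hS : Setup J T φ P) (hD : Data P) : T ≤ KK P := by
  classical
  obtain ⟨a, ha, haT, b, hb, hbT, ha1, hb1, hab⟩ := hS.exists_ab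
  haveI : IsSimpleGroup (alternatingGroup (Fin 5)) := alternatingGroup.isSimpleGroup (by simp)
  let N : Subgroup (alternatingGroup (Fin 5)) := ((KK P).subgroupOf T).map φ.toMonoidHom
  haveI hK : ((KK P).subgroupOf T).Normal := Subgroup.Normal.subgroupOf inferInstance T
  haveI hN : N.Normal := Subgroup.Normal.map hK _ φ.surjective
  have hmem : φ ⟨a, haT⟩ ∈ N :=
    ⟨⟨a, haT⟩, Subgroup.mem_subgroupOf.mpr (le_KK P ha), rfl⟩
  rcases hN.eq_bot_or_eq_top with h | h
  · rw [h, Subgroup.mem_bot] at hmem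
    have := φ.injective (hmem.trans (map_one φ).symm)
    exact absurd (Subtype.mk.inj this) ha1
  · intro t ht
    have h2 : φ ⟨t, ht⟩ ∈ N := by rw [h]; exact Subgroup.mem_top _
    obtain ⟨x, hx, hxt⟩ := h2
    have h3 : x = ⟨t, ht⟩ := φ.injective hxt
    rw [h3] at hx
    exact Subgroup.mem_subgroupOf.mp hx

theorem five_C_le (hS : Setup J T φ P) (hD : Data P) :
    Subgroup.centralizer ({J} : Set G) ≤ KK P := by
  intro x hx
  have hJ : J ∈ KK P := le_KK P hS.JP
  rcases (hS.mem_C x).mp hx with h | h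
  · exact five_T_le hS hD h
  · have h2 := mul_mem (inv_mem hJ) (five_T_le hS hD h)
    simpa using h2

theorem five_top (hS : Setup J T φ P) (hD : Data P) : KK P = ⊤ := by
  rw [eq_top_iff]
  intro g _
  have hord : orderOf (g * J * g⁻¹) = 2 := by
    rw [← hS.ordJ]
    exact orderOf_injective (MulAut.conj g).toMonoidHom (MulAut.conj g).injective J
  obtain ⟨k, hk, hkJ⟩ := hD.conj_K hS.ordJ hord
  have hc : k⁻¹ * g ∈ Subgroup.centralizer ({J} : Set G) := by
    rw [Subgroup.mem_centralizer_singleton_iff]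
    have h1 : k * J = g * J * g⁻¹ * k := by
      rw [← hkJ]
      group
    calc k⁻¹ * g * J = k⁻¹ * (g * J * g⁻¹) * g := by group
      _ = k⁻¹ * (k * J * k⁻¹) * g := by rw [hkJ]
      _ = J * (k⁻¹ * g) := by group
  have := mul_mem hk (five_C_le hS hD hc)
  simpa using this

/-- The conclusion in the case `m = 5`. -/
theorem five_final (hS : Setup J T φ P) (hnn : ¬ (P : Subgroup G).Normal) : Cfsg.Spor.IsoJ1 G := by
  have hD := hS.toData hnn
  haveI hK := hD.isSimple_K
  have htop := five_top hS hD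
  let e : G ≃* KK P := (Subgroup.topEquiv (G := G)).symm.trans (MulEquiv.subgroupCongr htop.symm)
  haveI : IsSimpleGroup G := e.isSimpleGroup
  obtain ⟨e'⟩ := hS.exists_equiv
  exact Cfsg.Agent.S1644.result P ⟨⟨fun a b => Subtype.ext (hS.comm a.2 b.2)⟩⟩ hS.card_P J hS.ordJ e'

end Cfsg.Agent.Lib.CJ2Am
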