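import Mathlib
import Cfsg.Agent.Lib.LocalStruct.SCNOdd

/-!
# A normal simple subgroup from an abelian Sylow 2-subgroup of order 8 with a transitive normaliser
-/

set_option autoImplicit false
set_option linter.style.haveILetI false
set_option linter.unusedSectionVars false
set_option linter.unusedVariables false

namespace Cfsg.Agent.Lib.CJ2Am

open Pointwise

variable {G : Type*} [Group G] [Finite G]

/-- The abstract hypotheses on a Sylow 2-subgroup. -/
structure Data (P : Sylow 2 G) : Prop where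
  card8 : Nat.card (P : Subgroup G) = 8
  exp2 : ∀ x ∈ (P : Subgroup G), x ^ 2 = 1
  selfc : ∀ x : G, (∀ p ∈ (P : Subgroup G), x * p = p * x) → x ∈ (P : Subgroup G)
  trans : ∀ i ∈ (P : Subgroup G), ∀ j ∈ (P : Subgroup G), i ≠ 1 → j ≠ 1 →
      ∃ n : G, n ∈ Subgroup.normalizer ((P : Subgroup G) : Set G) ∧ n * i * n⁻¹ = j
  nn : ¬ (P : Subgroup G).Normal
  oddfree : ∀ i ∈ (P : Subgroup G), i ≠ 1 → ∀ R : Subgroup G, (∀ r ∈ R, i * r = r * i) →
      Odd (Nat.card R) → (∀ p ∈ (P : Subgroup G), ∀ r ∈ R, p * r * p⁻¹ ∈ R) → R = ⊥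

variable {P : Sylow 2 G}

/-- If `a`, `b` and `a * b` all invert a subgroup of odd order, the subgroup is trivial. -/
theorem eq_bot_of_inverters (M : Subgroup G) (hM : Odd (Nat.card M)) {a b : G}
    (h1' : ∀ x ∈ M, a * x * a⁻¹ = x⁻¹) (h2' : ∀ x ∈ M, b * x * b⁻¹ = x⁻¹)
    (h3' : ∀ x ∈ M, (a * b) * x * (a * b)⁻¹ = x⁻¹) : M = ⊥ := by
  rw [eq_bot_iff]
  intro x hx
  have h1 := h1' x hx
  have h2 := h2' x hx
  have h3 := h3' x hx
  have h4 : x = x⁻¹ := by
    have : (a * b) * x * (a * b)⁻¹ = a * (b * x * b⁻¹) * a⁻¹ := by group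
    rw [this, h2] at h3
    have h5 : a * x⁻¹ * a⁻¹ = (a * x * a⁻¹)⁻¹ := by group
    rw [h5, h1, inv_inv] at h3
    exact h3
  have h5 : x ^ 2 = 1 := by
    rw [sq]
    nth_rw 1 [h4]
    exact inv_mul_cancel x
  have h6 : orderOf x ∣ 2 := orderOf_dvd_of_pow_eq_one h5
  have h7 : orderOf x ∣ Nat.card M := by
    have := orderOf_dvd_natCard (⟨x, hx⟩ : M)
    rwa [Subgroup.orderOf_mk] at this
  have h8 : Odd (orderOf x) := hM.of_dvd_nat h7
  have h9 : orderOf x = 1 := by
    rcases (Nat.dvd_prime Nat.prime_two).mp h6 with h | h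
    · exact h
    · rw [h] at h8
      exact absurd h8 (by decide)
  rw [Subgroup.mem_bot]
  exact orderOf_eq_one_iff.mp h9

namespace Data

theorem comm (hD : Data P) {x y : G} (hx : x ∈ (P : Subgroup G)) (hy : y ∈ (P : Subgroup G)) :
    x * y = y * x := by
  have h1 := hD.exp2 x hx
  have h2 := hD.exp2 y hy
  have h3 := hD.exp2 (x * y) (mul_mem hx hy)
  have hxi : x⁻¹ = x := inv_eq_of_mul_eq_one_left (by simpa [sq] using h1)
  have hyi : y⁻¹ = y := inv_eq_of_mul_eq_one_left (by simpa [sq] using h2)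
  have : (x * y)⁻¹ = x * y := inv_eq_of_mul_eq_one_left (by simpa [sq] using h3)
  rw [mul_inv_rev, hxi, hyi] at this
  exact this.symm

/-- three distinct non-trivial elements. -/
theorem exists_pair (hD : Data P) : ∃ a ∈ (P : Subgroup G), ∃ b ∈ (P : Subgroup G),
    a ≠ 1 ∧ b ≠ 1 ∧ a * b ≠ 1 := by
  classical
  haveI : Fintype (P : Subgroup G) := Fintype.ofFinite _
  have hc : Fintype.card (P : Subgroup G) = 8 := by rw [← Nat.card_eq_fintype_card]; exact hD.card8
  have hex : ∃ a : (P : Subgroup G), a ∉ ({1} : Finset (P : Subgroup G)) := by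
    by_contra hno
    push Not at hno
    have : (Finset.univ : Finset (P : Subgroup G)) ⊆ {1} := fun a _ => hno a
    have := Finset.card_le_card this
    simp [hc] at this
  obtain ⟨a, ha⟩ := hex
  have hex2 : ∃ b : (P : Subgroup G), b ∉ ({1, a⁻¹} : Finset (P : Subgroup G)) := by
    by_contra hno
    push Not at hno
    have : (Finset.univ : Finset (P : Subgroup G)) ⊆ {1, a⁻¹} := fun a _ => hno a
    have h := Finset.card_le_card this
    have h2 : ({1, a⁻¹} : Finset (P : Subgroup G)).card ≤ 2 := Finset.card_le_two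
    rw [Finset.card_univ, hc] at h
    omega
  obtain ⟨b, hb⟩ := hex2
  refine ⟨a, a.2, b, b.2, ?_, ?_, ?_⟩
  · intro h
    exact ha (Finset.mem_singleton.mpr (Subtype.ext h))
  · intro h
    exact hb (Finset.mem_insert_self _ _ |> fun h' => by
      have : b = 1 := Subtype.ext h
      rw [this]; exact h')
  · intro h
    apply hb
    have : b = a⁻¹ := by
      apply Subtype.ext
      simp only [Subgroup.coe_inv]
      exact eq_inv_of_mul_eq_one_right h
    rw [this]
    exact Finset.mem_insert_of_mem (Finset.mem_singleton_self _)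

/-- A subgroup of odd order normalised by `P` is trivial. -/
theorem odd_eq_bot (hD : Data P) (M : Subgroup G) (hM : Odd (Nat.card M))
    (hn : ∀ p ∈ (P : Subgroup G), ∀ x ∈ M, p * x * p⁻¹ ∈ M) : M = ⊥ := by
  classical
  obtain ⟨a, ha, b, hb, ha1, hb1, hab1⟩ := hD.exists_pair
  have hinv : ∀ i ∈ (P : Subgroup G), i ≠ 1 → ∀ x ∈ M, i * x * i⁻¹ = x⁻¹ := by
    intro i hi hi1
    refine Cfsg.Agent.Lib.LocalStruct.SCNOdd.inverts_of_fpf (by simpa [sq] using hD.exp2 i hi) (hn i hi) ?_
    intro w hw hwi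
    have hbot := hD.oddfree i hi hi1 (M ⊓ Subgroup.centralizer ({i} : Set G)) ?_ ?_ ?_
    · have : w ∈ M ⊓ Subgroup.centralizer ({i} : Set G) :=
        Subgroup.mem_inf.mpr ⟨hw, Subgroup.mem_centralizer_singleton_iff.mpr hwi.symm⟩
      rw [hbot] at this
      simpa using this
    · intro r hr
      exact (Subgroup.mem_centralizer_singleton_iff.mp (Subgroup.mem_inf.mp hr).2).symm
    · exact hM.of_dvd_nat (Subgroup.card_dvd_of_le inf_le_left)
    · intro p hp r hr
      refine Subgroup.mem_inf.mpr ⟨hn p hp r (Subgroup.mem_inf.mp hr).1, ?_⟩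
      rw [Subgroup.mem_centralizer_singleton_iff]
      have hr2 := Subgroup.mem_centralizer_singleton_iff.mp (Subgroup.mem_inf.mp hr).2
      have hc := hD.comm hp hi
      calc p * r * p⁻¹ * i = p * r * (p⁻¹ * i) := by group
        _ = p * r * (i * p⁻¹) := by
            have : p⁻¹ * i = i * p⁻¹ := by
              rw [inv_mul_eq_iff_eq_mul, ← mul_assoc, hc, mul_assoc, mul_inv_cancel, mul_one]
            rw [this]
        _ = p * (r * i) * p⁻¹ := by group
        _ = p * (i * r) * p⁻¹ := by rw [hr2]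
        _ = (p * i) * r * p⁻¹ := by group
        _ = (i * p) * r * p⁻¹ := by rw [hc]
        _ = i * (p * r * p⁻¹) := by group
  exact eq_bot_of_inverters M hM (hinv a ha ha1) (hinv b hb hb1) (hinv (a * b) (mul_mem ha hb) hab1)

end Data

/-- Every involution lies in a conjugate of a Sylow 2-subgroup. -/
theorem exists_conj_mem_sylow {L : Type*} [Group L] [Finite L] (S : Sylow 2 L) (t : L)
    (ht : orderOf t = 2) : ∃ g : L, g * t * g⁻¹ ∈ (S : Subgroup L) := by
  have hp : IsPGroup 2 (Subgroup.zpowers t) := by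
    rw [IsPGroup.iff_card]
    refine ⟨1, ?_⟩
    rw [Nat.card_zpowers, ht, pow_one]
  obtain ⟨Q, hQ⟩ := hp.exists_le_sylow
  obtain ⟨g, hg⟩ := MulAction.exists_smul_eq L Q S
  refine ⟨g, ?_⟩
  have h : MulAut.conj g t ∈ MulAut.conj g • (Q : Subgroup L) := by
    have : t ∈ (Q : Subgroup L) := hQ (Subgroup.mem_zpowers t)
    exact Subgroup.smul_mem_pointwise_smul _ _ _ this
  rw [← Sylow.coe_subgroup_smul, hg] at h
  simpa [MulAut.conj_apply] using h

/-- The normal closure of `P`. -/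
abbrev KK (P : Sylow 2 G) : Subgroup G := Subgroup.normalClosure ((P : Subgroup G) : Set G)

theorem le_KK (P : Sylow 2 G) : (P : Subgroup G) ≤ KK P := Subgroup.subset_normalClosure

namespace Data

/-- every involution lies in `KK P`. -/
theorem invol_mem (hD : Data P) {t : G} (ht : orderOf t = 2) : t ∈ KK P := by
  obtain ⟨g, hg⟩ := exists_conj_mem_sylow P t ht
  have h := (inferInstance : (KK P).Normal).conj_mem _ (le_KK P hg) g⁻¹
  simpa [mul_assoc] using h

theorem orderOf_eq_two (hD : Data P) {i : G} (hi : i ∈ (P : Subgroup G)) (hi1 : i ≠ 1) :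
    orderOf i = 2 :=
  orderOf_eq_prime (hD.exp2 i hi) hi1

end Data

/-- Burnside's transfer inside `K`. -/
theorem burnside_aux {K : Subgroup G} (hPK : (P : Subgroup G) ≤ K) (hKn : K.Normal)
    (hno : ∀ n ∈ K, n ∈ Subgroup.normalizer ((P : Subgroup G) : Set G) →
      ∀ i ∈ (P : Subgroup G), n * i * n⁻¹ = i) :
    ∃ M : Subgroup G, Odd (Nat.card M) ∧ (∀ p ∈ (P : Subgroup G), ∀ x ∈ M, p * x * p⁻¹ ∈ M) ∧
      (M = ⊥ → K ≤ (P : Subgroup G)) := by
  classical
  let P' : Sylow 2 K := P.subtype hPK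
  have hP'mem : ∀ x : K, x ∈ (P' : Subgroup K) ↔ (x : G) ∈ (P : Subgroup G) := by
    intro x
    rw [Sylow.coe_subtype]
    exact Subgroup.mem_subgroupOf
  have hN : Subgroup.normalizer ((P' : Subgroup K) : Set K) ≤
      Subgroup.centralizer ((P' : Subgroup K) : Set K) := by
    intro x hx
    rw [Subgroup.mem_centralizer_iff]
    intro c hc
    have hxG : (x : G) ∈ Subgroup.normalizer ((P : Subgroup G) : Set G) := by
      rw [Subgroup.mem_normalizer_iff]
      intro h
      constructor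
      · intro hh
        have := (Subgroup.mem_normalizer_iff.mp hx ⟨h, hPK hh⟩).mp ((hP'mem _).mpr hh)
        exact (hP'mem _).mp this
      · intro hh
        have hK : h ∈ K := by
          have h1 := hKn.conj_mem _ (hPK hh) (x : G)⁻¹
          simpa [mul_assoc] using h1
        have := (Subgroup.mem_normalizer_iff.mp hx ⟨h, hK⟩).mpr ((hP'mem _).mpr hh)
        exact (hP'mem _).mp this
    have := hno x x.2 hxG c ((hP'mem _).mp hc)
    apply Subtype.ext
    simp only [Subgroup.coe_mul]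
    calc (c : G) * x = (x * c * (x : G)⁻¹) * x := by rw [this]
      _ = x * c := by group
  obtain ⟨N, hNn, hnd, hcompl⟩ : ∃ N : Subgroup K, N.Normal ∧ ¬ 2 ∣ Nat.card N ∧
      Subgroup.IsComplement' N (P' : Subgroup K) :=
    ⟨_, MonoidHom.normal_ker _, MonoidHom.not_dvd_card_ker_transferSylow P' hN,
      MonoidHom.ker_transferSylow_isComplement' P' hN⟩
  refine ⟨N.map K.subtype, ?_, ?_, ?_⟩
  · rw [Subgroup.card_map_of_injective K.subtype_injective]
    exact Nat.not_even_iff_odd.mp (fun h => hnd h.two_dvd)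
  · intro p hp x hx
    obtain ⟨z, hz, rfl⟩ := Subgroup.mem_map.mp hx
    exact Subgroup.mem_map.mpr ⟨⟨p, hPK hp⟩ * z * (⟨p, hPK hp⟩ : K)⁻¹, hNn.conj_mem z hz _, rfl⟩
  · intro hbot
    have hNbot : N = ⊥ := by
      rw [Subgroup.map_eq_bot_iff_of_injective _ K.subtype_injective] at hbot
      exact hbot
    have hcard := hcompl.card_mul_card
    rw [hNbot] at hcard
    simp only [Subgroup.card_bot, one_mul] at hcard
    have htop : (P' : Subgroup K) = ⊤ := Subgroup.eq_top_of_card_eq _ hcard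
    intro x hx
    have : (⟨x, hx⟩ : K) ∈ (P' : Subgroup K) := by rw [htop]; exact Subgroup.mem_top _
    exact (hP'mem _).mp this

namespace Data

/-- Burnside: some element of `KK P` normalising `P` moves an element of `P`. -/
theorem exists_moved (hD : Data P) : ∃ n ∈ KK P, n ∈ Subgroup.normalizer ((P : Subgroup G) : Set G) ∧
    ∃ i ∈ (P : Subgroup G), n * i * n⁻¹ ≠ i := by
  by_contra hno
  have hno' : ∀ n ∈ KK P, n ∈ Subgroup.normalizer ((P : Subgroup G) : Set G) →
      ∀ i ∈ (P : Subgroup G), n * i * n⁻¹ = i := by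
    intro n hn hnn i hi
    by_contra h
    exact hno ⟨n, hn, hnn, i, hi, h⟩
  obtain ⟨M, hM, hn, hb⟩ := burnside_aux (le_KK P) inferInstance hno'
  have hle := hb (hD.odd_eq_bot M hM hn)
  have heq : KK P = (P : Subgroup G) := le_antisymm hle (le_KK P)
  apply hD.nn
  rw [← heq]
  infer_instance

end Data

/-- A normal subgroup moving a point of a transitive action of prime degree is transitive. -/
theorem transitive_of_normal_of_prime {A X : Type*} [Group A] [MulAction A X]
    [MulAction.IsPretransitive A X] (hp : (Nat.card X).Prime) (N : Subgroup A) [N.Normal] (x : X)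
    (a : N) (h : a • x ≠ x) (y z : X) : ∃ b : N, b • y = z := by
  haveI : MulAction.IsPreprimitive A X := MulAction.IsPreprimitive.of_prime_card hp
  have hB : MulAction.IsBlock A (MulAction.orbit N x) := MulAction.IsBlock.orbit_of_normal x
  rcases hB.subsingleton_or_eq_univ with hs | hu
  · exact absurd (hs (MulAction.mem_orbit x a) (MulAction.mem_orbit_self x)) h
  · have hy : y ∈ MulAction.orbit N x := by rw [hu]; exact Set.mem_univ _
    have hz : z ∈ MulAction.orbit N x := by rw [hu]; exact Set.mem_univ _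
    obtain ⟨b, rfl⟩ := hy
    obtain ⟨c, rfl⟩ := hz
    refine ⟨c * b⁻¹, ?_⟩
    rw [mul_smul, inv_smul_smul]

theorem card_nontriv (hc : Nat.card (P : Subgroup G) = 8) :
    Nat.card {x : G // x ∈ (P : Subgroup G) ∧ x ≠ 1} = 7 := by
  classical
  have h1 : {x : G | x ∈ (P : Subgroup G) ∧ x ≠ 1} = ((P : Subgroup G) : Set G) \ {1} := by
    ext x
    exact ⟨fun h => ⟨h.1, h.2⟩, fun h => ⟨h.1, h.2⟩⟩
  have h2 : Nat.card {x : G // x ∈ (P : Subgroup G) ∧ x ≠ 1} =
      Nat.card ↥({x : G | x ∈ (P : Subgroup G) ∧ x ≠ 1} : Set G) := rfl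
  rw [h2, h1, Nat.card_coe_set_eq, Set.ncard_sdiff_singleton_of_mem (one_mem (P : Subgroup G))]
  have h3 : ((P : Subgroup G) : Set G).ncard = 8 := by
    rw [← Nat.card_coe_set_eq]
    exact hc
  rw [h3]

namespace Data

/-- `N_K(P)` is transitive on the non-trivial elements of `P`. -/
theorem trans_K (hD : Data P) (i : G) (hi : i ∈ (P : Subgroup G)) (j : G) (hj : j ∈ (P : Subgroup G))
    (hi1 : i ≠ 1) (hj1 : j ≠ 1) :
    ∃ n ∈ KK P, n ∈ Subgroup.normalizer ((P : Subgroup G) : Set G) ∧ n * i * n⁻¹ = j := by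
  classical
  set H := Subgroup.normalizer ((P : Subgroup G) : Set G) with hH
  let X := {x : G // x ∈ (P : Subgroup G) ∧ x ≠ 1}
  letI act : MulAction H X :=
    { smul := fun n x => ⟨(n : G) * x.1 * (n : G)⁻¹,
        (Subgroup.mem_normalizer_iff.mp n.2 x.1).mp x.2.1, by
          intro h
          apply x.2.2
          have h2 : (n : G) * x.1 = (n : G) := by
            calc (n : G) * x.1 = ((n : G) * x.1 * (n : G)⁻¹) * n := by group
              _ = n := by rw [h, one_mul]
          simpa using h2⟩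
      one_smul := fun x => Subtype.ext (by
        change ((1 : H) : G) * x.1 * ((1 : H) : G)⁻¹ = x.1
        simp)
      mul_smul := fun a b x => Subtype.ext (by
        change ((a * b : H) : G) * x.1 * ((a * b : H) : G)⁻¹ =
          (a : G) * ((b : G) * x.1 * (b : G)⁻¹) * (a : G)⁻¹
        simp only [Subgroup.coe_mul]
        group) }
  have hsmul : ∀ (n : H) (x : X), ((n • x : X) : G) = (n : G) * x.1 * (n : G)⁻¹ := fun _ _ => rfl
  haveI : MulAction.IsPretransitive H X := ⟨by
    intro x y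
    obtain ⟨n, hn, hnxy⟩ := hD.trans x.1 x.2.1 y.1 y.2.1 x.2.2 y.2.2
    exact ⟨⟨n, hn⟩, Subtype.ext hnxy⟩⟩
  have hp : (Nat.card X).Prime := by
    have : Nat.card X = 7 := card_nontriv hD.card8
    rw [this]
    norm_num
  obtain ⟨n₀, hn₀K, hn₀N, i₀, hi₀, hmv⟩ := hD.exists_moved
  have hi₀1 : i₀ ≠ 1 := by
    rintro rfl
    exact hmv (by simp)
  haveI hN : ((KK P).subgroupOf H).Normal := Subgroup.Normal.subgroupOf inferInstance H
  obtain ⟨b, hb⟩ := transitive_of_normal_of_prime hp ((KK P).subgroupOf H) (⟨i₀, hi₀, hi₀1⟩ : X)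
    ⟨⟨n₀, hn₀N⟩, Subgroup.mem_subgroupOf.mpr hn₀K⟩ (by
      intro h
      apply hmv
      exact congrArg Subtype.val h) (⟨i, hi, hi1⟩ : X) (⟨j, hj, hj1⟩ : X)
  exact ⟨((b : H) : G), Subgroup.mem_subgroupOf.mp b.2, (b : H).2, congrArg Subtype.val hb⟩

/-- All involutions are conjugate under `KK P`. -/
theorem conj_K (hD : Data P) {s t : G} (hs : orderOf s = 2) (ht : orderOf t = 2) :
    ∃ k ∈ KK P, k * s * k⁻¹ = t := by
  have hPK := le_KK P
  let P' : Sylow 2 (KK P) := P.subtype hPK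
  have hP'mem : ∀ x : KK P, x ∈ (P' : Subgroup (KK P)) ↔ (x : G) ∈ (P : Subgroup G) := by
    intro x
    rw [Sylow.coe_subtype]
    exact Subgroup.mem_subgroupOf
  have key : ∀ u : G, orderOf u = 2 → ∃ k ∈ KK P, k * u * k⁻¹ ∈ (P : Subgroup G) ∧
      k * u * k⁻¹ ≠ 1 := by
    intro u hu
    have huK := hD.invol_mem hu
    obtain ⟨k, hk⟩ := exists_conj_mem_sylow P' ⟨u, huK⟩ (by
      rw [← Subgroup.orderOf_coe]
      exact hu)
    refine ⟨k, k.2, (hP'mem _).mp hk, ?_⟩
    intro h
    have h2 : (k : G) * u = k := by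
      calc (k : G) * u = ((k : G) * u * (k : G)⁻¹) * k := by group
        _ = k := by rw [h, one_mul]
    have h3 : u = 1 := by simpa using h2
    rw [h3] at hu
    simp at hu
  obtain ⟨k₁, hk₁, hk₁P, hk₁1⟩ := key s hs
  obtain ⟨k₂, hk₂, hk₂P, hk₂1⟩ := key t ht
  obtain ⟨n, hn, -, hnc⟩ := hD.trans_K _ hk₁P _ hk₂P hk₁1 hk₂1
  refine ⟨k₂⁻¹ * n * k₁, mul_mem (mul_mem (inv_mem hk₂) hn) hk₁, ?_⟩
  calc k₂⁻¹ * n * k₁ * s * (k₂⁻¹ * n * k₁)⁻¹ = k₂⁻¹ * (n * (k₁ * s * k₁⁻¹) * n⁻¹) * k₂ := by group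
    _ = k₂⁻¹ * (k₂ * t * k₂⁻¹) * k₂ := by rw [hnc]
    _ = t := by group

/-- The normal closure of `P` is simple. -/
theorem isSimple_K (hD : Data P) : IsSimpleGroup (KK P) := by
  classical
  have hPK := le_KK P
  haveI : Nontrivial (KK P) := by
    obtain ⟨a, ha, -, -, ha1, -, -⟩ := hD.exists_pair
    exact ⟨⟨⟨a, hPK ha⟩, 1, fun h => ha1 (congrArg Subtype.val h)⟩⟩
  refine ⟨?_⟩
  intro N hN
  by_cases hodd : Odd (Nat.card N)
  · left
    have h := hD.odd_eq_bot (N.map (KK P).subtype)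
      (by rwa [Subgroup.card_map_of_injective (KK P).subtype_injective]) (by
        intro p hp x hx
        obtain ⟨z, hz, rfl⟩ := Subgroup.mem_map.mp hx
        exact Subgroup.mem_map.mpr ⟨⟨p, hPK hp⟩ * z * (⟨p, hPK hp⟩ : KK P)⁻¹, hN.conj_mem z hz _, rfl⟩)
    rwa [Subgroup.map_eq_bot_iff_of_injective _ (KK P).subtype_injective] at h
  · right
    have h2 : 2 ∣ Nat.card N := (Nat.not_odd_iff_even.mp hodd).two_dvd
    haveI : Fact (Nat.Prime 2) := ⟨Nat.prime_two⟩
    obtain ⟨t, ht⟩ := exists_prime_orderOf_dvd_card' 2 h2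
    have ht' : orderOf (((t : N) : KK P) : G) = 2 := by
      rw [Subgroup.orderOf_coe, Subgroup.orderOf_coe]
      exact ht
    have hall : ∀ s : G, orderOf s = 2 → ∃ hs : s ∈ KK P, (⟨s, hs⟩ : KK P) ∈ N := by
      intro s hs
      have hsK := hD.invol_mem hs
      refine ⟨hsK, ?_⟩
      obtain ⟨k, hk, hks⟩ := hD.conj_K ht' hs
      have := hN.conj_mem (t : KK P) t.2 ⟨k, hk⟩
      convert this using 1
      exact Subtype.ext hks.symm
    rw [eq_top_iff]
    rintro ⟨x, hx⟩ -
    have hcl : KK P ≤ N.map (KK P).subtype := by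
      apply Subgroup.closure_le _ |>.mpr
      intro y hy
      rw [Group.mem_conjugatesOfSet_iff] at hy
      obtain ⟨a, ha, hay⟩ := hy
      obtain ⟨c, hc⟩ := isConj_iff.mp hay
      have ha2 : y ^ 2 = 1 := by
        rw [← hc]
        have := hD.exp2 a ha
        calc (c * a * c⁻¹) ^ 2 = c * a ^ 2 * c⁻¹ := by
              rw [sq, sq]; group
          _ = 1 := by rw [this]; group
      by_cases hy1 : y = 1
      · rw [hy1]
        exact one_mem _
      · obtain ⟨hs, hs2⟩ := hall y (orderOf_eq_prime ha2 hy1)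
        exact Subgroup.mem_map.mpr ⟨_, hs2, rfl⟩
    obtain ⟨z, hz, hzx⟩ := Subgroup.mem_map.mp (hcl hx)
    have : z = ⟨x, hx⟩ := Subtype.ext hzx
    rwa [← this]

/-- `P`, seen in `KK P`, is not normal. -/
theorem not_normal_K (hD : Data P) : ¬ ((P.subtype (le_KK P) : Sylow 2 (KK P)) : Subgroup (KK P)).Normal := by
  intro hn
  haveI := hD.isSimple_K
  have hP'mem : ∀ x : KK P, x ∈ ((P.subtype (le_KK P) : Sylow 2 (KK P)) : Subgroup (KK P)) ↔
      (x : G) ∈ (P : Subgroup G) := by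
    intro x
    rw [Sylow.coe_subtype]
    exact Subgroup.mem_subgroupOf
  rcases hn.eq_bot_or_eq_top with h | h
  · obtain ⟨a, ha, -, -, ha1, -, -⟩ := hD.exists_pair
    have : (⟨a, le_KK P ha⟩ : KK P) ∈ ((P.subtype (le_KK P) : Sylow 2 (KK P)) : Subgroup (KK P)) :=
      (hP'mem _).mpr ha
    rw [h, Subgroup.mem_bot] at this
    exact ha1 (congrArg Subtype.val this)
  · have hle : KK P ≤ (P : Subgroup G) := by
      intro x hx
      have : (⟨x, hx⟩ : KK P) ∈ ((P.subtype (le_KK P) : Sylow 2 (KK P)) : Subgroup (KK P)) := by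
        rw [h]; exact Subgroup.mem_top _
      exact (hP'mem _).mp this
    have heq : KK P = (P : Subgroup G) := le_antisymm hle (le_KK P)
    apply hD.nn
    rw [← heq]
    infer_instance

end Data

end Cfsg.Agent.Lib.CJ2Am
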