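import Cfsg.Agent.Lib.CJ2Am.Setup
import Cfsg.Agent.S0111

/-!
# From `C(J) = ⟨J⟩ × T` to the abstract data on the Sylow 2-subgroup
-/

set_option autoImplicit false
set_option linter.style.haveILetI false
set_option linter.unusedSectionVars false
set_option linter.unusedVariables false

namespace Cfsg.Agent.Lib.CJ2Am

variable {G : Type*} [Group G] [Finite G] {A : Type*} [Group A]
variable {J : G} {T : Subgroup G} {φ : T ≃* A} {P : Sylow 2 G}

/-- The size of a conjugation orbit of a subgroup. -/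
theorem conj_orbit_card (H : Subgroup G) (x : G) :
    ({z | ∃ n ∈ H, n * x * n⁻¹ = z} : Set G).ncard *
      Nat.card ↥(H ⊓ Subgroup.centralizer ({x} : Set G)) = Nat.card H := by
  classical
  letI act : MulAction H G :=
    { smul := fun n z => (n : G) * z * (n : G)⁻¹
      one_smul := fun z => by
        change ((1 : H) : G) * z * ((1 : H) : G)⁻¹ = z
        simp
      mul_smul := fun a b z => by
        change ((a * b : H) : G) * z * ((a * b : H) : G)⁻¹ =
          (a : G) * ((b : G) * z * (b : G)⁻¹) * (a : G)⁻¹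
        simp only [Subgroup.coe_mul]
        group }
  have hsmul : ∀ (n : H) (z : G), n • z = (n : G) * z * (n : G)⁻¹ := fun _ _ => rfl
  have h1 := MulAction.index_stabilizer H x
  have h2 := Subgroup.card_mul_index (MulAction.stabilizer H x)
  have h3 : MulAction.orbit H x = {z | ∃ n ∈ H, n * x * n⁻¹ = z} := by
    ext z
    constructor
    · rintro ⟨n, rfl⟩
      exact ⟨n, n.2, rfl⟩
    · rintro ⟨n, hn, rfl⟩
      exact ⟨⟨n, hn⟩, rfl⟩
  have h4 : Nat.card (MulAction.stabilizer H x) =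
      Nat.card ↥(H ⊓ Subgroup.centralizer ({x} : Set G)) := by
    have h5 : (MulAction.stabilizer H x).map H.subtype = H ⊓ Subgroup.centralizer ({x} : Set G) := by
      ext z
      constructor
      · rintro ⟨n, hn, rfl⟩
        refine Subgroup.mem_inf.mpr ⟨n.2, Subgroup.mem_centralizer_singleton_iff.mpr ?_⟩
        have h6 : (n : G) * x * (n : G)⁻¹ = x := hn
        change (n : G) * x = x * n
        calc (n : G) * x = ((n : G) * x * (n : G)⁻¹) * n := by group
          _ = x * n := by rw [h6]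
      · intro hz
        obtain ⟨hzH, hzC⟩ := Subgroup.mem_inf.mp hz
        refine ⟨⟨z, hzH⟩, ?_, rfl⟩
        have h7 := Subgroup.mem_centralizer_singleton_iff.mp hzC
        change z * x * z⁻¹ = x
        rw [h7]
        group
    rw [← h5, Subgroup.card_map_of_injective H.subtype_injective]
  rw [← h3, ← h1, ← h4, mul_comm]
  exact h2

namespace Setup

theorem card_P (hS : Setup J T φ P) : Nat.card (P : Subgroup G) = 8 := by
  have hle := hS.P_le_C
  set C := Subgroup.centralizer ({J} : Set G) with hC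
  have h1 := Subgroup.relIndex_mul_index hle
  have h2 := Subgroup.card_mul_index (P : Subgroup G)
  have h3 := Subgroup.card_mul_index C
  have h4 : ¬ 2 ∣ (P : Subgroup G).index := P.not_dvd_index
  have h5 : (P : Subgroup G).relIndex C * Nat.card (P : Subgroup G) = Nat.card C := by
    have hpos : C.index ≠ 0 := Subgroup.index_ne_zero_of_finite
    apply Nat.eq_of_mul_eq_mul_right (Nat.pos_of_ne_zero hpos)
    calc (P : Subgroup G).relIndex C * Nat.card (P : Subgroup G) * C.index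
        = Nat.card (P : Subgroup G) * ((P : Subgroup G).relIndex C * C.index) := by ring
      _ = Nat.card G := by rw [h1, h2]
      _ = Nat.card C * C.index := h3.symm
  obtain ⟨k, hk⟩ := IsPGroup.iff_card.mp P.2
  have hodd : ¬ 2 ∣ (P : Subgroup G).relIndex C := fun h => h4 (by rw [← h1]; exact h.mul_right _)
  rw [hC] at h5
  rw [hS.card_C] at h5
  rw [hk] at h5 ⊢
  obtain ⟨r, hr⟩ : ∃ r, (P : Subgroup G).relIndex C = 2 * r + 1 := by
    rcases Nat.even_or_odd' ((P : Subgroup G).relIndex C) with ⟨c, h | h⟩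
    · exact absurd (h ▸ Dvd.intro c rfl) hodd
    · exact ⟨c, h⟩
  rw [hr] at h5
  have hk7 : k < 7 := by
    by_contra hk7
    push Not at hk7
    have h6 : 2 ^ 7 ≤ 2 ^ k := Nat.pow_le_pow_right (by norm_num) hk7
    have h7 : 2 * Nat.card A ≤ 120 := by rcases hS.cardA with h | h <;> omega
    nlinarith
  interval_cases k <;> rcases hS.cardA with h | h <;> rw [h] at h5 <;> norm_num at h5 ⊢ <;> omega

theorem phi_pow (hS : Setup J T φ P) {w : G} (hw : w ∈ T) (n : ℕ) :
    φ ⟨w, hw⟩ ^ n = 1 ↔ w ^ n = 1 := by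
  rw [← map_pow, map_eq_one_iff φ φ.injective]
  constructor
  · intro h
    exact congrArg Subtype.val h
  · intro h
    exact Subtype.ext h

theorem exp8 (hS : Setup J T φ P) {x : G} (hx : x ∈ (P : Subgroup G)) : x ^ 8 = 1 := by
  have := pow_card_eq_one' (x := (⟨x, hx⟩ : (P : Subgroup G)))
  rw [hS.card_P] at this
  exact congrArg Subtype.val this

theorem sq_of_mem_T (hS : Setup J T φ P) {w : G} (hw : w ∈ T) (h8 : w ^ 8 = 1) : w ^ 2 = 1 :=
  (hS.phi_pow hw 2).mp (hS.fa.pow8 _ ((hS.phi_pow hw 8).mpr h8))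

theorem J_sq' (hS : Setup J T φ P) : J ^ 2 = 1 := by
  rw [sq]; exact hS.J_sq

theorem exp2 (hS : Setup J T φ P) {x : G} (hx : x ∈ (P : Subgroup G)) : x ^ 2 = 1 := by
  rcases (hS.mem_C x).mp (hS.P_le_C hx) with h | h
  · exact hS.sq_of_mem_T h (hS.exp8 hx)
  · have h2 := hS.sq_of_mem_T h (hS.exp8 (mul_mem hS.JP hx))
    have hc := hS.Jc x hx
    have : (J * x) ^ 2 = J ^ 2 * x ^ 2 := by
      rw [sq, sq, sq]
      calc J * x * (J * x) = J * (x * J) * x := by group
        _ = J * (J * x) * x := by rw [hc]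
        _ = J * J * (x * x) := by group
    rw [this, hS.J_sq', one_mul] at h2
    exact h2

theorem comm (hS : Setup J T φ P) {x y : G} (hx : x ∈ (P : Subgroup G)) (hy : y ∈ (P : Subgroup G)) :
    x * y = y * x := by
  have h1 := hS.exp2 hx
  have h2 := hS.exp2 hy
  have h3 := hS.exp2 (mul_mem hx hy)
  have hxi : x⁻¹ = x := inv_eq_of_mul_eq_one_left (by simpa [sq] using h1)
  have hyi : y⁻¹ = y := inv_eq_of_mul_eq_one_left (by simpa [sq] using h2)
  have : (x * y)⁻¹ = x * y := inv_eq_of_mul_eq_one_left (by simpa [sq] using h3)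
  rw [mul_inv_rev, hxi, hyi] at this
  exact this.symm

theorem exists_mem_notMem (hS : Setup J T φ P) (s : Finset G) (hs : s.card < 8) :
    ∃ x ∈ (P : Subgroup G), x ∉ s := by
  by_contra hno
  push Not at hno
  have h1 : ((P : Subgroup G) : Set G) ⊆ (s : Set G) := fun x hx => hno x hx
  have h2 := Set.ncard_le_ncard h1 (Finset.finite_toSet s)
  rw [Set.ncard_coe_finset, ← Nat.card_coe_set_eq] at h2
  have h3 : Nat.card ((P : Subgroup G) : Set G) = 8 := hS.card_P
  omega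

/-- `T ∩ P` part of an element of `P` -/
theorem T_part (hS : Setup J T φ P) {x : G} (hx : x ∈ (P : Subgroup G)) :
    ∃ w ∈ (P : Subgroup G), w ∈ T ∧ (x = w ∨ x = J * w) := by
  rcases (hS.mem_C x).mp (hS.P_le_C hx) with h | h
  · exact ⟨x, hx, h, Or.inl rfl⟩
  · refine ⟨J * x, mul_mem hS.JP hx, h, Or.inr ?_⟩
    rw [← mul_assoc, hS.J_sq, one_mul]

theorem exists_ab (hS : Setup J T φ P) : ∃ a ∈ (P : Subgroup G), a ∈ T ∧ ∃ b ∈ (P : Subgroup G), b ∈ T ∧
    a ≠ 1 ∧ b ≠ 1 ∧ a ≠ b := by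
  classical
  obtain ⟨x, hx, hxs⟩ := hS.exists_mem_notMem {1, J} (by
    exact lt_of_le_of_lt Finset.card_le_two (by norm_num))
  obtain ⟨a, ha, haT, hxa⟩ := hS.T_part hx
  have ha1 : a ≠ 1 := by
    rintro rfl
    apply hxs
    rcases hxa with h | h
    · simp [h]
    · simp [h]
  obtain ⟨x', hx', hxs'⟩ := hS.exists_mem_notMem {1, J, a, J * a} (by
    exact lt_of_le_of_lt Finset.card_le_four (by norm_num))
  obtain ⟨b, hb, hbT, hxb⟩ := hS.T_part hx'
  have hb1 : b ≠ 1 := by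
    rintro rfl
    apply hxs'
    rcases hxb with h | h
    · simp [h]
    · simp [h]
  have hab : a ≠ b := by
    rintro rfl
    apply hxs'
    rcases hxb with h | h
    · simp [h]
    · simp [h]
  exact ⟨a, ha, haT, b, hb, hbT, ha1, hb1, hab⟩

section ab

variable {a b : G}

theorem klein_T (hS : Setup J T φ P) (ha : a ∈ (P : Subgroup G)) (haT : a ∈ T)
    (hb : b ∈ (P : Subgroup G)) (hbT : b ∈ T) (ha1 : a ≠ 1) (hb1 : b ≠ 1) (hab : a ≠ b)
    {x : G} (hx : x ∈ T) (hxa : x * a = a * x) (hxb : x * b = b * x) :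
    x = 1 ∨ x = a ∨ x = b ∨ x = a * b := by
  have hne : ∀ {u v : G} (hu : u ∈ T) (hv : v ∈ T), u ≠ v → φ ⟨u, hu⟩ ≠ φ ⟨v, hv⟩ := by
    intro u v hu hv huv h
    exact huv (Subtype.mk.inj (φ.injective h))
  have hmul : ∀ {u v : G} (hu : u ∈ T) (hv : v ∈ T) (huv : u * v ∈ T),
      φ ⟨u * v, huv⟩ = φ ⟨u, hu⟩ * φ ⟨v, hv⟩ := by
    intro u v hu hv huv
    rw [← map_mul]
    rfl
  have hone : φ ⟨1, one_mem T⟩ = 1 := map_one φ
  have hsq : ∀ {w : G} (hw : w ∈ T) (hwP : w ∈ (P : Subgroup G)), φ ⟨w, hw⟩ ^ 2 = 1 :=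
    fun hw hwP => (hS.phi_pow hw 2).mpr (hS.exp2 hwP)
  have hcomm : ∀ {u v : G} (hu : u ∈ T) (hv : v ∈ T), u * v = v * u →
      φ ⟨u, hu⟩ * φ ⟨v, hv⟩ = φ ⟨v, hv⟩ * φ ⟨u, hu⟩ := by
    intro u v hu hv huv
    rw [← hmul hu hv (mul_mem hu hv), ← hmul hv hu (mul_mem hv hu)]
    congr 1
    exact Subtype.ext huv
  have h := hS.fa.klein (φ ⟨a, haT⟩) (hsq haT ha)
    (by rw [← hone]; exact hne haT (one_mem T) ha1) (φ ⟨b, hbT⟩) (hsq hbT hb)
    (by rw [← hone]; exact hne hbT (one_mem T) hb1) (hne haT hbT hab)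
    (hcomm haT hbT (hS.comm ha hb)) (φ ⟨x, hx⟩) (hcomm hx haT hxa) (hcomm hx hbT hxb)
  rcases h with h | h | h | h
  · left
    rw [← hone] at h
    exact Subtype.mk.inj (φ.injective h)
  · right; left
    exact Subtype.mk.inj (φ.injective h)
  · right; right; left
    exact Subtype.mk.inj (φ.injective h)
  · right; right; right
    rw [← hmul haT hbT (mul_mem haT hbT)] at h
    exact Subtype.mk.inj (φ.injective h)

theorem list_P (hS : Setup J T φ P) (ha : a ∈ (P : Subgroup G)) (haT : a ∈ T)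
    (hb : b ∈ (P : Subgroup G)) (hbT : b ∈ T) (ha1 : a ≠ 1) (hb1 : b ≠ 1) (hab : a ≠ b)
    {x : G} (hx : x ∈ (P : Subgroup G)) :
    (x = 1 ∨ x = a ∨ x = b ∨ x = a * b) ∨ (x = J ∨ x = J * a ∨ x = J * b ∨ x = J * (a * b)) := by
  obtain ⟨w, hw, hwT, hxw⟩ := hS.T_part hx
  have h := hS.klein_T ha haT hb hbT ha1 hb1 hab hwT (hS.comm hw ha) (hS.comm hw hb)
  rcases hxw with rfl | rfl
  · exact Or.inl h
  · right
    rcases h with rfl | rfl | rfl | rfl
    · left; simp
    · right; left; rfl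
    · right; right; left; rfl
    · right; right; right; rfl

theorem selfc (hS : Setup J T φ P) (ha : a ∈ (P : Subgroup G)) (haT : a ∈ T)
    (hb : b ∈ (P : Subgroup G)) (hbT : b ∈ T) (ha1 : a ≠ 1) (hb1 : b ≠ 1) (hab : a ≠ b)
    (x : G) (hx : ∀ p ∈ (P : Subgroup G), x * p = p * x) : x ∈ (P : Subgroup G) := by
  have hxC : x ∈ Subgroup.centralizer ({J} : Set G) :=
    Subgroup.mem_centralizer_singleton_iff.mpr (hx J hS.JP)
  have hab1 : a * b ∈ (P : Subgroup G) := mul_mem ha hb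
  have hin : ∀ {w : G}, (w = 1 ∨ w = a ∨ w = b ∨ w = a * b) → w ∈ (P : Subgroup G) := by
    rintro w (rfl | rfl | rfl | rfl)
    · exact one_mem _
    · exact ha
    · exact hb
    · exact hab1
  rcases (hS.mem_C x).mp hxC with h | h
  · exact hin (hS.klein_T ha haT hb hbT ha1 hb1 hab h (hx a ha) (hx b hb))
  · have hc : ∀ {c : G}, c ∈ T → c ∈ (P : Subgroup G) → J * x * c = c * (J * x) := by
      intro c hcT hcP
      calc J * x * c = J * (x * c) := by group
        _ = J * (c * x) := by rw [hx c hcP]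
        _ = (J * c) * x := by group
        _ = (c * J) * x := by rw [hS.J_comm hcT]
        _ = c * (J * x) := by group
    have h2 := hin (hS.klein_T ha haT hb hbT ha1 hb1 hab h (hc haT ha) (hc hbT hb))
    have h3 := mul_mem hS.JP h2
    rwa [← mul_assoc, hS.J_sq, one_mul] at h3

theorem exists_rot (hS : Setup J T φ P) (ha : a ∈ (P : Subgroup G)) (haT : a ∈ T)
    (hb : b ∈ (P : Subgroup G)) (hbT : b ∈ T) (ha1 : a ≠ 1) (hb1 : b ≠ 1) (hab : a ≠ b) :
    ∃ y ∈ T, y ^ 3 = 1 ∧ y * a * y⁻¹ = b ∧ y * b * y⁻¹ = a * b := by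
  have hne : ∀ {u v : G} (hu : u ∈ T) (hv : v ∈ T), u ≠ v → φ ⟨u, hu⟩ ≠ φ ⟨v, hv⟩ := by
    intro u v hu hv huv h
    exact huv (Subtype.mk.inj (φ.injective h))
  have hmul : ∀ {u v : G} (hu : u ∈ T) (hv : v ∈ T) (huv : u * v ∈ T),
      φ ⟨u * v, huv⟩ = φ ⟨u, hu⟩ * φ ⟨v, hv⟩ := by
    intro u v hu hv huv
    rw [← map_mul]
    rfl
  have hone : φ ⟨1, one_mem T⟩ = 1 := map_one φ
  have hsq : ∀ {w : G} (hw : w ∈ T) (hwP : w ∈ (P : Subgroup G)), φ ⟨w, hw⟩ ^ 2 = 1 :=
    fun hw hwP => (hS.phi_pow hw 2).mpr (hS.exp2 hwP)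
  have hcomm : ∀ {u v : G} (hu : u ∈ T) (hv : v ∈ T), u * v = v * u →
      φ ⟨u, hu⟩ * φ ⟨v, hv⟩ = φ ⟨v, hv⟩ * φ ⟨u, hu⟩ := by
    intro u v hu hv huv
    rw [← hmul hu hv (mul_mem hu hv), ← hmul hv hu (mul_mem hv hu)]
    congr 1
    exact Subtype.ext huv
  obtain ⟨y', h3, h4, h5⟩ := hS.fa.rot (φ ⟨a, haT⟩) (hsq haT ha)
    (by rw [← hone]; exact hne haT (one_mem T) ha1) (φ ⟨b, hbT⟩) (hsq hbT hb)
    (by rw [← hone]; exact hne hbT (one_mem T) hb1) (hne haT hbT hab)
    (hcomm haT hbT (hS.comm ha hb))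
  obtain ⟨⟨y, hy⟩, rfl⟩ := φ.surjective y'
  refine ⟨y, hy, (hS.phi_pow hy 3).mp h3, ?_, ?_⟩
  · have : y * a * y⁻¹ ∈ T := mul_mem (mul_mem hy haT) (inv_mem hy)
    have h6 : φ ⟨y * a * y⁻¹, this⟩ = φ ⟨b, hbT⟩ := by
      rw [← h4, ← map_mul, ← map_inv, ← map_mul]
      rfl
    exact Subtype.mk.inj (φ.injective h6)
  · have : y * b * y⁻¹ ∈ T := mul_mem (mul_mem hy hbT) (inv_mem hy)
    have h6 : φ ⟨y * b * y⁻¹, this⟩ = φ ⟨a * b, mul_mem haT hbT⟩ := by
      rw [hmul haT hbT, ← h5, ← map_mul, ← map_inv, ← map_mul]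
      rfl
    exact Subtype.mk.inj (φ.injective h6)

/-- the rotation normalises `P` -/
theorem rot_mem_normalizer (hS : Setup J T φ P) (ha : a ∈ (P : Subgroup G)) (haT : a ∈ T)
    (hb : b ∈ (P : Subgroup G)) (hbT : b ∈ T) (ha1 : a ≠ 1) (hb1 : b ≠ 1) (hab : a ≠ b)
    {y : G} (hy : y ∈ T) (hy3 : y ^ 3 = 1) (hya : y * a * y⁻¹ = b) (hyb : y * b * y⁻¹ = a * b) :
    y ∈ Subgroup.normalizer ((P : Subgroup G) : Set G) := by
  have hyJ : y * J * y⁻¹ = J := by
    rw [← hS.J_comm hy]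
    group
  have hm : ∀ u v : G, y * (u * v) * y⁻¹ = (y * u * y⁻¹) * (y * v * y⁻¹) := by
    intro u v; group
  have hab1 : y * (a * b) * y⁻¹ = b * (a * b) := by rw [hm, hya, hyb]
  have hfw : ∀ x ∈ (P : Subgroup G), y * x * y⁻¹ ∈ (P : Subgroup G) := by
    intro x hx
    have habP : a * b ∈ (P : Subgroup G) := mul_mem ha hb
    have hbab : b * (a * b) ∈ (P : Subgroup G) := mul_mem hb habP
    rcases hS.list_P ha haT hb hbT ha1 hb1 hab hx with (rfl | rfl | rfl | rfl) | (rfl | rfl | rfl | rfl)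
    · simp
    · rw [hya]; exact hb
    · rw [hyb]; exact habP
    · rw [hab1]; exact hbab
    · rw [hyJ]; exact hS.JP
    · rw [hm, hyJ, hya]; exact mul_mem hS.JP hb
    · rw [hm, hyJ, hyb]; exact mul_mem hS.JP habP
    · rw [hm, hyJ, hab1]; exact mul_mem hS.JP hbab
  rw [Subgroup.mem_normalizer_iff]
  intro x
  refine ⟨hfw x, ?_⟩
  intro hx
  have h1 := hfw _ (hfw _ hx)
  have h2 : y * (y * (y * x * y⁻¹) * y⁻¹) * y⁻¹ = y ^ 3 * x * (y ^ 3)⁻¹ := by
    simp only [pow_succ, pow_zero, one_mul]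
    group
  rw [h2, hy3] at h1
  simpa using h1

/-- Thompson transfer. -/
theorem exists_conj_mem_T (hS : Setup J T φ P) : ∃ g : G, g * J * g⁻¹ ∈ (P : Subgroup G) ⊓ T := by
  have hle : (P : Subgroup G) ⊓ T ≤ (P : Subgroup G) := inf_le_left
  have hi : ((P : Subgroup G) ⊓ T).relIndex (P : Subgroup G) = 2 := by
    rw [Subgroup.relIndex, Subgroup.index_eq_two_iff]
    refine ⟨⟨J, hS.JP⟩, ?_⟩
    rintro ⟨x, hx⟩
    have hmem : ∀ u : (P : Subgroup G), u ∈ ((P : Subgroup G) ⊓ T).subgroupOf (P : Subgroup G) ↔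
        (u : G) ∈ T := by
      intro u
      rw [Subgroup.mem_subgroupOf]
      exact ⟨fun h => (Subgroup.mem_inf.mp h).2, fun h => Subgroup.mem_inf.mpr ⟨u.2, h⟩⟩
    rw [hmem, hmem]
    change Xor' (x * J ∈ T) (x ∈ T)
    rw [hS.Jc x hx]
    rcases (hS.mem_C x).mp (hS.P_le_C hx) with h | h
    · right
      refine ⟨h, ?_⟩
      intro h2
      apply hS.J_not_mem
      have := mul_mem h2 (inv_mem h)
      simpa using this
    · left
      refine ⟨h, ?_⟩
      intro h2
      apply hS.J_not_mem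
      have := mul_mem h (inv_mem h2)
      simpa using this
  have hJn : J ∉ (P : Subgroup G) ⊓ T := fun h => hS.J_not_mem (Subgroup.mem_inf.mp h).2
  rcases Cfsg.Agent.S0111.result P _ hle hi J hS.ordJ hS.JP hJn with ⟨M, hM, hMi, -⟩ | h
  · exact absurd hMi (hS.h2 M hM)
  · exact h

/-- Burnside's fusion lemma, for `P`. -/
theorem exists_normalizer_conj (hS : Setup J T φ P) {g v : G} (hv : v ∈ (P : Subgroup G))
    (hg : g * J * g⁻¹ = v) : ∃ n ∈ Subgroup.normalizer ((P : Subgroup G) : Set G), n * J * n⁻¹ = v := by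
  haveI : IsMulCommutative (P : Subgroup G) := ⟨⟨fun a b => Subtype.ext (hS.comm a.2 b.2)⟩⟩
  obtain ⟨n, hn, hnJ⟩ := Sylow.conj_eq_normalizer_conj_of_mem P J g⁻¹ hS.JP (by
    rw [inv_inv, hg]; exact hv)
  refine ⟨n⁻¹, inv_mem hn, ?_⟩
  rw [inv_inv] at hnJ ⊢
  rw [← hnJ, hg]

/-- Transitivity on the non-trivial elements of `P`. -/
theorem trans_J (hS : Setup J T φ P) (ha : a ∈ (P : Subgroup G)) (haT : a ∈ T)
    (hb : b ∈ (P : Subgroup G)) (hbT : b ∈ T) (ha1 : a ≠ 1) (hb1 : b ≠ 1) (hab : a ≠ b)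
    {i : G} (hi : i ∈ (P : Subgroup G)) (hi1 : i ≠ 1) :
    ∃ n ∈ Subgroup.normalizer ((P : Subgroup G) : Set G), n * J * n⁻¹ = i := by
  classical
  obtain ⟨y, hyT, hy3, hya, hyb⟩ := hS.exists_rot ha haT hb hbT ha1 hb1 hab
  have hyN := hS.rot_mem_normalizer ha haT hb hbT ha1 hb1 hab hyT hy3 hya hyb
  have hyJ : y * J * y⁻¹ = J := by
    rw [← hS.J_comm hyT]
    group
  have hm : ∀ u v : G, y * (u * v) * y⁻¹ = (y * u * y⁻¹) * (y * v * y⁻¹) := by
    intro u v; group
  have hbab : b * (a * b) = a := by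
    rw [← mul_assoc, hS.comm hb ha, mul_assoc]
    have := hS.exp2 hb
    rw [sq] at this
    rw [this, mul_one]
  have hyab : y * (a * b) * y⁻¹ = a := by rw [hm, hya, hyb, hbab]
  set H := Subgroup.normalizer ((P : Subgroup G) : Set G) with hH
  set O : Set G := {z | ∃ n ∈ H, n * J * n⁻¹ = z} with hO
  have hOy : ∀ z ∈ O, y * z * y⁻¹ ∈ O := by
    rintro z ⟨n, hn, rfl⟩
    exact ⟨y * n, mul_mem hyN hn, by group⟩
  have hJO : J ∈ O := ⟨1, one_mem _, by simp⟩
  obtain ⟨g, hg⟩ := hS.exists_conj_mem_T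
  obtain ⟨hvP, hvT⟩ := Subgroup.mem_inf.mp hg
  obtain ⟨n₀, hn₀, hn₀J⟩ := hS.exists_normalizer_conj hvP rfl
  have hvO : g * J * g⁻¹ ∈ O := ⟨n₀, hn₀, hn₀J⟩
  have hv1 : g * J * g⁻¹ ≠ 1 := by
    intro h
    have h2 : g * J = g := by
      calc g * J = (g * J * g⁻¹) * g := by group
        _ = g := by rw [h, one_mul]
    have h3 : J = 1 := by simpa using h2
    have := hS.ordJ
    rw [h3] at this
    simp at this
  have hall3 : a ∈ O ∧ b ∈ O ∧ a * b ∈ O := by
    rcases hS.klein_T ha haT hb hbT ha1 hb1 hab hvT (hS.comm hvP ha) (hS.comm hvP hb) with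
      h | h | h | h
    · exact absurd h hv1
    · rw [h] at hvO
      have h2 := hOy _ hvO
      rw [hya] at h2
      have h3 := hOy _ h2
      rw [hyb] at h3
      exact ⟨hvO, h2, h3⟩
    · rw [h] at hvO
      have h2 := hOy _ hvO
      rw [hyb] at h2
      have h3 := hOy _ h2
      rw [hyab] at h3
      exact ⟨h3, hvO, h2⟩
    · rw [h] at hvO
      have h2 := hOy _ hvO
      rw [hyab] at h2
      have h3 := hOy _ h2
      rw [hya] at h3
      exact ⟨h2, h3, hvO⟩
  obtain ⟨haO, hbO, habO⟩ := hall3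
  have hOP : ∀ z ∈ O, z ∈ (P : Subgroup G) ∧ z ≠ 1 := by
    rintro z ⟨n, hn, rfl⟩
    refine ⟨(Subgroup.mem_normalizer_iff.mp hn J).mp hS.JP, ?_⟩
    intro h
    have h2 : n * J = n := by
      calc n * J = (n * J * n⁻¹) * n := by group
        _ = n := by rw [h, one_mul]
    have h3 : J = 1 := by simpa using h2
    have := hS.ordJ
    rw [h3] at this
    simp at this
  have hstep1 : y * (J * a) * y⁻¹ = J * b := by rw [hm, hyJ, hya]
  have hstep2 : y * (J * b) * y⁻¹ = J * (a * b) := by rw [hm, hyJ, hyb]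
  have hstep3 : y * (J * (a * b)) * y⁻¹ = J * a := by rw [hm, hyJ, hyab]
  by_cases hJa : J * a ∈ O
  · have hJb : J * b ∈ O := by rw [← hstep1]; exact hOy _ hJa
    have hJab : J * (a * b) ∈ O := by rw [← hstep2]; exact hOy _ hJb
    rcases hS.list_P ha haT hb hbT ha1 hb1 hab hi with (rfl | rfl | rfl | rfl) | (rfl | rfl | rfl | rfl)
    · exact absurd rfl hi1
    · exact haO
    · exact hbO
    · exact habO
    · exact hJO
    · exact hJa
    · exact hJb
    · exact hJab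
  · exfalso
    have hJb : J * b ∉ O := fun h => hJa (by
      have := hOy _ (hOy _ h)
      rwa [hstep2, hstep3] at this)
    have hJab : J * (a * b) ∉ O := fun h => hJa (by
      have := hOy _ h
      rwa [hstep3] at this)
    have hOeq : O = (({J, a, b, a * b} : Finset G) : Set G) := by
      ext z
      simp only [Finset.coe_insert, Finset.coe_singleton, Set.mem_insert_iff, Set.mem_singleton_iff]
      constructor
      · intro hz
        obtain ⟨hzP, hz1⟩ := hOP z hz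
        rcases hS.list_P ha haT hb hbT ha1 hb1 hab hzP with
          (rfl | rfl | rfl | rfl) | (rfl | rfl | rfl | rfl)
        · exact absurd rfl hz1
        · exact Or.inr (Or.inl rfl)
        · exact Or.inr (Or.inr (Or.inl rfl))
        · exact Or.inr (Or.inr (Or.inr rfl))
        · exact Or.inl rfl
        · exact absurd hz hJa
        · exact absurd hz hJb
        · exact absurd hz hJab
      · rintro (rfl | rfl | rfl | rfl)
        · exact hJO
        · exact haO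
        · exact hbO
        · exact habO
    have hJaT : J ≠ a := fun h => hS.J_not_mem (h ▸ haT)
    have hJbT : J ≠ b := fun h => hS.J_not_mem (h ▸ hbT)
    have hJabT : J ≠ a * b := fun h => hS.J_not_mem (h ▸ mul_mem haT hbT)
    have haab : a ≠ a * b := fun h => hb1 (by simpa using h)
    have hbab' : b ≠ a * b := fun h => ha1 (by simpa using h)
    have hcard : O.ncard = 4 := by
      rw [hOeq, Set.ncard_coe_finset]
      rw [Finset.card_insert_of_notMem, Finset.card_insert_of_notMem, Finset.card_insert_of_notMem,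
        Finset.card_singleton]
      · simpa using hbab'
      · simp [hab, haab]
      · simp [hJaT, hJbT, hJabT]
    have h1 := conj_orbit_card H J
    rw [← hO, hcard] at h1
    have hPle : (P : Subgroup G) ≤ H ⊓ Subgroup.centralizer ({J} : Set G) :=
      le_inf Subgroup.le_normalizer hS.P_le_C
    obtain ⟨c, hc⟩ := Subgroup.card_dvd_of_le hPle
    rw [hS.card_P] at hc
    obtain ⟨d, hd⟩ := Subgroup.card_dvd_of_le (le_top : H ≤ ⊤)
    rw [Subgroup.card_top] at hd
    have h2 := Subgroup.card_mul_index (P : Subgroup G)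
    rw [hS.card_P, hd, ← h1, hc] at h2
    have h3 : ¬ 2 ∣ (P : Subgroup G).index := P.not_dvd_index
    apply h3
    refine ⟨2 * (c * d), ?_⟩
    nlinarith

/-- No odd `P`-invariant subgroup of `C(J)`. -/
theorem oddfree_J (hS : Setup J T φ P) (ha : a ∈ (P : Subgroup G)) (haT : a ∈ T)
    (hb : b ∈ (P : Subgroup G)) (hbT : b ∈ T) (ha1 : a ≠ 1) (hb1 : b ≠ 1) (hab : a ≠ b)
    (R : Subgroup G) (hRC : ∀ r ∈ R, J * r = r * J) (hodd : Odd (Nat.card R))
    (hn : ∀ p ∈ (P : Subgroup G), ∀ r ∈ R, p * r * p⁻¹ ∈ R) : R = ⊥ := by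
  have hRo : ∀ {r : G}, r ∈ R → Odd (orderOf r) := by
    intro r hr
    have h1 : orderOf r ∣ Nat.card R := by
      have := orderOf_dvd_natCard (⟨r, hr⟩ : R)
      rwa [Subgroup.orderOf_mk] at this
    exact hodd.of_dvd_nat h1
  have hRT : ∀ {r : G}, r ∈ R → r ∈ T := by
    intro r hr
    have hrC : r ∈ Subgroup.centralizer ({J} : Set G) :=
      Subgroup.mem_centralizer_singleton_iff.mpr (hRC r hr).symm
    rcases (hS.mem_C r).mp hrC with h | h
    · exact h
    · exfalso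
      apply hS.J_not_mem
      have hc : Commute J r := hRC r hr
      have h1 : (J * r) ^ orderOf r ∈ T := pow_mem h _
      rw [hc.mul_pow, pow_orderOf_eq_one, mul_one] at h1
      obtain ⟨c, hc2⟩ := hRo hr
      rw [hc2, pow_succ, pow_mul, hS.J_sq', one_pow, one_mul] at h1
      exact h1
  have hinv : ∀ v ∈ (P : Subgroup G), v ∈ T → v ≠ 1 → ∀ x ∈ R, v * x * v⁻¹ = x⁻¹ := by
    intro v hvP hvT hv1
    refine Cfsg.Agent.Lib.LocalStruct.SCNOdd.inverts_of_fpf (by simpa [sq] using hS.exp2 hvP)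
      (hn v hvP) ?_
    intro w hw hvw
    have hwT := hRT hw
    have hvφ : φ ⟨v, hvT⟩ ^ 2 = 1 := (hS.phi_pow hvT 2).mpr (hS.exp2 hvP)
    have hv1φ : φ ⟨v, hvT⟩ ≠ 1 := by
      intro h
      have h2 := φ.injective (h.trans (map_one φ).symm)
      exact hv1 (Subtype.mk.inj h2)
    have hcφ : φ ⟨w, hwT⟩ * φ ⟨v, hvT⟩ = φ ⟨v, hvT⟩ * φ ⟨w, hwT⟩ := by
      rw [← map_mul, ← map_mul]
      congr 1
      exact Subtype.ext hvw.symm
    have h4 := (hS.phi_pow hwT 4).mp (hS.fa.cent _ hvφ hv1φ _ hcφ)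
    have h5 : orderOf w ∣ 4 := orderOf_dvd_of_pow_eq_one h4
    have h6 : orderOf w = 1 := by
      have h7 := hRo hw
      have h8 : orderOf w ∣ 2 ^ 2 := by simpa using h5
      obtain ⟨k, hk, hk2⟩ := (Nat.dvd_prime_pow Nat.prime_two).mp h8
      rw [hk2] at h7 ⊢
      interval_cases k
      · simp
      · exact absurd h7 (by decide)
      · exact absurd h7 (by decide)
    exact orderOf_eq_one_iff.mp h6
  have hab1 : a * b ≠ 1 := by
    intro h
    apply hab
    have h2 := hS.exp2 ha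
    rw [sq] at h2
    have h3 : a * (a * b) = a := by rw [h, mul_one]
    rw [← mul_assoc, h2, one_mul] at h3
    exact h3.symm
  exact eq_bot_of_inverters R hodd (hinv a ha haT ha1) (hinv b hb hbT hb1)
    (hinv (a * b) (mul_mem ha hb) (mul_mem haT hbT) hab1)

end ab

/-- The abstract data. -/
theorem toData (hS : Setup J T φ P) (hnn : ¬ (P : Subgroup G).Normal) : Data P := by
  obtain ⟨a, ha, haT, b, hb, hbT, ha1, hb1, hab⟩ := hS.exists_ab
  refine ⟨hS.card_P, fun x hx => hS.exp2 hx, hS.selfc ha haT hb hbT ha1 hb1 hab, ?_, hnn, ?_⟩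
  · intro i hi j hj hi1 hj1
    obtain ⟨n₁, hn₁, h1⟩ := hS.trans_J ha haT hb hbT ha1 hb1 hab hi hi1
    obtain ⟨n₂, hn₂, h2⟩ := hS.trans_J ha haT hb hbT ha1 hb1 hab hj hj1
    refine ⟨n₂ * n₁⁻¹, mul_mem hn₂ (inv_mem hn₁), ?_⟩
    rw [← h1, ← h2]
    group
  · intro i hi hi1 R hRC hodd hRn
    obtain ⟨n, hn, hnJ⟩ := hS.trans_J ha haT hb hbT ha1 hb1 hab hi hi1
    let c : G ≃* G := MulAut.conj n⁻¹
    have hcapp : ∀ x : G, c x = n⁻¹ * x * n := by
      intro x
      simp [c, MulAut.conj_apply]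
    have hbot := hS.oddfree_J ha haT hb hbT ha1 hb1 hab (R.map c.toMonoidHom) ?_ ?_ ?_
    · exact (Subgroup.map_eq_bot_iff_of_injective _ c.injective).mp hbot
    · rintro r ⟨r₀, hr₀, rfl⟩
      have h := hRC r₀ hr₀
      rw [← hnJ] at h
      change J * c r₀ = c r₀ * J
      rw [hcapp]
      have h3 : n * J * n⁻¹ * r₀ * n = r₀ * (n * J * n⁻¹) * n := by rw [h]
      calc J * (n⁻¹ * r₀ * n) = n⁻¹ * (n * J * n⁻¹ * r₀ * n) := by group
        _ = n⁻¹ * (r₀ * (n * J * n⁻¹) * n) := by rw [h3]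
        _ = n⁻¹ * r₀ * n * J := by group
    · rw [Subgroup.card_map_of_injective c.injective]
      exact hodd
    · rintro p hp r ⟨r₀, hr₀, rfl⟩
      have hp' : n * p * n⁻¹ ∈ (P : Subgroup G) := (Subgroup.mem_normalizer_iff.mp hn p).mp hp
      have h := hRn _ hp' r₀ hr₀
      refine ⟨_, h, ?_⟩
      change c _ = p * c r₀ * p⁻¹
      rw [hcapp, hcapp]
      group

end Setup

end Cfsg.Agent.Lib.CJ2Am
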