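import Mathlib
import Cfsg.Prelude.Def_SporadicB
import Cfsg.Prelude.Def_TwoFusion
import Cfsg.Agent.S0111

/-!
`C(J) = ⟨J⟩ × T`, `T ≅ A_m`, `J` two-central, no normal subgroup of index two: then `m ∈ {4,5}`.
-/

namespace Cfsg.Agent.Lib.CJ2Am

open Equiv Equiv.Perm
open scoped commutatorElement

section Alt

variable {m : ℕ}

lemma exists_pair (hm : 6 ≤ m) (σ : Perm (Fin m)) (hσ : σ * σ = 1) (A : Finset (Fin m))
    (hA : A.card ≤ 4) (hinv : ∀ x, x ∉ A → σ x ∉ A) :
    ∃ p q, p ≠ q ∧ p ∉ A ∧ q ∉ A ∧ Commute (swap p q) σ := by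
  have hσσ : ∀ x, σ (σ x) = x := fun x => by
    have := congrArg (fun f : Perm (Fin m) => f x) hσ
    simpa using this
  have hc : 1 < (Aᶜ).card := by
    rw [Finset.card_compl]; simp only [Fintype.card_fin]; omega
  obtain ⟨p, hp, q, hq, hpq⟩ := Finset.one_lt_card.mp hc
  rw [Finset.mem_compl] at hp hq
  have key : ∀ r, σ r ≠ r → Commute (swap r (σ r)) σ := by
    intro r _
    show swap r (σ r) * σ = σ * swap r (σ r)
    rw [Equiv.mul_swap_eq_swap_mul σ r (σ r), hσσ r, Equiv.swap_comm]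
  by_cases h1 : σ p = p
  · by_cases h2 : σ q = q
    · refine ⟨p, q, hpq, hp, hq, ?_⟩
      show swap p q * σ = σ * swap p q
      rw [Equiv.mul_swap_eq_swap_mul σ p q, h1, h2]
    · exact ⟨q, σ q, fun h => h2 h.symm, hq, hinv q hq, key q h2⟩
  · exact ⟨p, σ p, fun h => h1 h.symm, hp, hinv p hp, key p h1⟩

lemma comm_mem (hm : 6 ≤ m) (σ : Perm (Fin m)) (hσ : σ * σ = 1) (N : Subgroup (Perm (Fin m)))
    (hN : ∀ a b : Perm (Fin m), sign a = 1 → sign b = 1 → Commute a σ → Commute b σ → ⁅a, b⁆ ∈ N)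
    {a₁ b₁ a₂ b₂ : Fin m} (h11 : a₁ ≠ b₁) (h22 : a₂ ≠ b₂) (h12 : a₁ ≠ a₂) (h13 : a₁ ≠ b₂)
    (h21 : b₁ ≠ a₂) (h23 : b₁ ≠ b₂) (h1 : σ a₁ = b₁) (h2 : σ a₂ = b₂) :
    swap a₁ b₁ * swap a₂ b₂ ∈ N := by
  classical
  have hσσ : ∀ x, σ (σ x) = x := fun x => by
    have := congrArg (fun f : Perm (Fin m) => f x) hσ
    simpa using this
  have h1' : σ b₁ = a₁ := by rw [← h1, hσσ]
  have h2' : σ b₂ = a₂ := by rw [← h2, hσσ]
  let A : Finset (Fin m) := {a₁, b₁, a₂, b₂}
  have hA : A.card ≤ 4 := Finset.card_le_four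
  have hinv : ∀ x, x ∉ A → σ x ∉ A := by
    intro x hx hx'
    apply hx
    simp only [A, Finset.mem_insert, Finset.mem_singleton] at hx' ⊢
    rcases hx' with h | h | h | h
    · right; left; rw [← hσσ x, h, h1]
    · left; rw [← hσσ x, h, h1']
    · right; right; right; rw [← hσσ x, h, h2]
    · right; right; left; rw [← hσσ x, h, h2']
  obtain ⟨p, q, hpq, hp, hq, hw⟩ := exists_pair hm σ hσ A hA hinv
  simp only [A, Finset.mem_insert, Finset.mem_singleton, not_or] at hp hq
  obtain ⟨hp1, hp2, hp3, hp4⟩ := hp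
  obtain ⟨hq1, hq2, hq3, hq4⟩ := hq
  set t := swap a₁ b₁ with ht
  set t' := swap a₂ b₂ with ht'
  set w := swap p q with hw'
  set s₁ := swap a₁ a₂ with hs₁
  set s₂ := swap b₁ b₂ with hs₂
  set c := s₁ * s₂ with hc
  have hs21 : s₂ * s₁ = s₁ * s₂ := by
    rw [hs₁, Equiv.mul_swap_eq_swap_mul s₂ a₁ a₂, hs₂,
      Equiv.swap_apply_of_ne_of_ne h11 h13,
      Equiv.swap_apply_of_ne_of_ne (Ne.symm h21) h22]
  have hs11 : s₁ * s₁ = 1 := by rw [hs₁]; exact Equiv.swap_mul_self _ _
  have hs22 : s₂ * s₂ = 1 := by rw [hs₂]; exact Equiv.swap_mul_self _ _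
  have hcc : c * c = 1 := by
    rw [hc]
    calc s₁ * s₂ * (s₁ * s₂) = s₁ * (s₂ * s₁) * s₂ := by group
      _ = s₁ * (s₁ * s₂) * s₂ := by rw [hs21]
      _ = (s₁ * s₁) * (s₂ * s₂) := by group
      _ = 1 := by rw [hs11, hs22, one_mul]
  have htt : t * t = 1 := by rw [ht]; exact Equiv.swap_mul_self _ _
  have hww : w * w = 1 := by rw [hw']; exact Equiv.swap_mul_self _ _
  have hca1 : c a₁ = a₂ := by
    rw [hc, Equiv.Perm.mul_apply, hs₂, Equiv.swap_apply_of_ne_of_ne h11 h13, hs₁,
      Equiv.swap_apply_left]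
  have hcb1 : c b₁ = b₂ := by
    rw [hc, Equiv.Perm.mul_apply, hs₂, Equiv.swap_apply_left, hs₁,
      Equiv.swap_apply_of_ne_of_ne (Ne.symm h13) (Ne.symm h22)]
  have hcp : ∀ r, r ≠ a₁ → r ≠ b₁ → r ≠ a₂ → r ≠ b₂ → c r = r := by
    intro r r1 r2 r3 r4
    rw [hc, Equiv.Perm.mul_apply, hs₂, Equiv.swap_apply_of_ne_of_ne r2 r4, hs₁,
      Equiv.swap_apply_of_ne_of_ne r1 r3]
  have hct : c * t = t' * c := by
    rw [ht, Equiv.mul_swap_eq_swap_mul c a₁ b₁, hca1, hcb1]
  have hcw : c * w = w * c := by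
    rw [hw', Equiv.mul_swap_eq_swap_mul c p q, hcp p hp1 hp2 hp3 hp4, hcp q hq1 hq2 hq3 hq4]
  have hst : sign t = -1 := by rw [ht]; exact Equiv.Perm.sign_swap h11
  have hsw : sign w = -1 := by rw [hw']; exact Equiv.Perm.sign_swap hpq
  have hsc : sign c = 1 := by
    rw [hc, map_mul, hs₁, hs₂, Equiv.Perm.sign_swap h12, Equiv.Perm.sign_swap h23]; rfl
  have hsd : sign (t * w) = 1 := by rw [map_mul, hst, hsw]; rfl
  have htσ : Commute t σ := by
    show t * σ = σ * t
    rw [ht, Equiv.mul_swap_eq_swap_mul σ a₁ b₁, h1, h1', Equiv.swap_comm]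
  have hdσ : Commute (t * w) σ := htσ.mul_left hw
  have hcσ : Commute c σ := by
    have e1 : σ * s₁ = s₂ * σ := by
      rw [hs₁, Equiv.mul_swap_eq_swap_mul σ a₁ a₂, h1, h2]
    have e2 : σ * s₂ = s₁ * σ := by
      rw [hs₂, Equiv.mul_swap_eq_swap_mul σ b₁ b₂, h1', h2']
    show c * σ = σ * c
    rw [hc]
    calc s₁ * s₂ * σ = s₂ * s₁ * σ := by rw [hs21]
      _ = s₂ * (s₁ * σ) := by group
      _ = s₂ * (σ * s₂) := by rw [e2]
      _ = (s₂ * σ) * s₂ := by group
      _ = (σ * s₁) * s₂ := by rw [e1]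
      _ = σ * (s₁ * s₂) := by group
  have hcomm := hN (t * w) c hsd hsc hdσ hcσ
  have hval : ⁅t * w, c⁆ = t * t' := by
    have it : t⁻¹ = t := inv_eq_of_mul_eq_one_left htt
    have iw : w⁻¹ = w := inv_eq_of_mul_eq_one_left hww
    have ic : c⁻¹ = c := inv_eq_of_mul_eq_one_left hcc
    rw [commutatorElement_def, mul_inv_rev, it, iw, ic]
    calc t * w * c * (w * t) * c = t * (w * c * w) * t * c := by group
      _ = t * (w * (c * w)) * t * c := by group
      _ = t * (w * (w * c)) * t * c := by rw [hcw]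
      _ = t * ((w * w) * c) * t * c := by group
      _ = t * (c * t) * c := by rw [hww, one_mul]; group
      _ = t * (t' * c) * c := by rw [hct]
      _ = t * t' * (c * c) := by group
      _ = t * t' := by rw [hcc, mul_one]
  rw [hval] at hcomm
  exact hcomm

lemma alt_key_aux (hm : 6 ≤ m) (σ : Perm (Fin m)) (hσ : σ * σ = 1) (N : Subgroup (Perm (Fin m)))
    (hN : ∀ a b : Perm (Fin m), sign a = 1 → sign b = 1 → Commute a σ → Commute b σ → ⁅a, b⁆ ∈ N) :
    ∀ (k : ℕ) (τ : Perm (Fin m)), τ.support.card ≤ k → τ * τ = 1 → sign τ = 1 →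
      (∀ x, τ x ≠ x → τ x = σ x) → τ ∈ N := by
  classical
  intro k
  induction k with
  | zero =>
    intro τ hc _ _ _
    have : τ.support = ∅ := Finset.card_eq_zero.mp (Nat.le_zero.mp hc)
    rw [Equiv.Perm.support_eq_empty_iff.mp this]
    exact N.one_mem
  | succ k ih =>
    intro τ hc hττ hs hag
    by_cases h1τ : τ = 1
    · rw [h1τ]; exact N.one_mem
    have hτ2 : ∀ x, τ (τ x) = x := fun x => by
      have := congrArg (fun f : Perm (Fin m) => f x) hττ
      simpa using this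
    obtain ⟨a₁, ha₁⟩ : ∃ a, τ a ≠ a := by
      by_contra h
      push Not at h
      exact h1τ (Equiv.ext h)
    set b₁ := τ a₁ with hb₁
    have hb₁' : τ b₁ = a₁ := hτ2 a₁
    have h11 : a₁ ≠ b₁ := fun h => ha₁ h.symm
    -- τ is not the transposition
    have hne : τ ≠ swap a₁ b₁ := by
      intro h
      rw [h, Equiv.Perm.sign_swap h11] at hs
      exact absurd hs (by decide)
    obtain ⟨a₂, ha₂⟩ : ∃ a, τ a ≠ swap a₁ b₁ a := by
      by_contra h
      push Not at h
      exact hne (Equiv.ext h)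
    have h12 : a₁ ≠ a₂ := by
      rintro rfl
      exact ha₂ (by rw [Equiv.swap_apply_left])
    have h21 : b₁ ≠ a₂ := by
      rintro rfl
      exact ha₂ (by rw [Equiv.swap_apply_right]; exact hb₁')
    have ha₂' : τ a₂ ≠ a₂ := by
      rwa [Equiv.swap_apply_of_ne_of_ne (Ne.symm h12) (Ne.symm h21)] at ha₂
    set b₂ := τ a₂ with hb₂
    have hb₂' : τ b₂ = a₂ := hτ2 a₂
    have h22 : a₂ ≠ b₂ := fun h => ha₂' h.symm
    have h13 : a₁ ≠ b₂ := by
      intro h
      apply h21
      rw [hb₁, h, hb₂']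
    have h23 : b₁ ≠ b₂ := by
      intro h
      apply h12
      rw [← hb₁', h, hb₂']
    have hσa₁ : σ a₁ = b₁ := (hag a₁ ha₁).symm
    have hσa₂ : σ a₂ = b₂ := (hag a₂ ha₂').symm
    have hmem := comm_mem hm σ hσ N hN h11 h22 h12 h13 h21 h23 hσa₁ hσa₂
    set t := swap a₁ b₁ with ht
    set t' := swap a₂ b₂ with ht'
    have htt : t * t = 1 := by rw [ht]; exact Equiv.swap_mul_self _ _
    have ht't' : t' * t' = 1 := by rw [ht']; exact Equiv.swap_mul_self _ _
    have hτt : τ * t = t * τ := by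
      rw [ht, Equiv.mul_swap_eq_swap_mul τ a₁ b₁, ← hb₁, hb₁', Equiv.swap_comm]
    have hτt' : τ * t' = t' * τ := by
      rw [ht', Equiv.mul_swap_eq_swap_mul τ a₂ b₂, ← hb₂, hb₂', Equiv.swap_comm]
    have htt' : t' * t = t * t' := by
      rw [ht, Equiv.mul_swap_eq_swap_mul t' a₁ b₁, ht',
        Equiv.swap_apply_of_ne_of_ne h12 h13, Equiv.swap_apply_of_ne_of_ne h21 h23]
    set τ' := τ * t * t' with hτ'
    have hτ'val : τ = τ' * (t * t') := by
      rw [hτ']
      calc τ = τ * (t * t) * (t' * t') := by rw [htt, ht't', mul_one, mul_one]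
        _ = τ * t * (t * t') * t' := by group
        _ = τ * t * (t' * t) * t' := by rw [htt']
        _ = τ * t * t' * (t * t') := by group
    have ht1 : ∀ r, r ≠ a₁ → r ≠ b₁ → t r = r := fun r h1 h2 => by
      rw [ht]; exact Equiv.swap_apply_of_ne_of_ne h1 h2
    have ht2 : ∀ r, r ≠ a₂ → r ≠ b₂ → t' r = r := fun r h1 h2 => by
      rw [ht']; exact Equiv.swap_apply_of_ne_of_ne h1 h2
    have hτ'a1 : τ' a₁ = a₁ := by
      rw [hτ', Equiv.Perm.mul_apply, Equiv.Perm.mul_apply, ht2 a₁ h12 h13, ht,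
        Equiv.swap_apply_left, hb₁']
    have hτ'b1 : τ' b₁ = b₁ := by
      rw [hτ', Equiv.Perm.mul_apply, Equiv.Perm.mul_apply, ht2 b₁ h21 h23, ht,
        Equiv.swap_apply_right]
    have hτ'a2 : τ' a₂ = a₂ := by
      rw [hτ', Equiv.Perm.mul_apply, Equiv.Perm.mul_apply, ht', Equiv.swap_apply_left,
        ht1 b₂ (Ne.symm h13) (Ne.symm h23), hb₂']
    have hτ'b2 : τ' b₂ = b₂ := by
      rw [hτ', Equiv.Perm.mul_apply, Equiv.Perm.mul_apply, ht', Equiv.swap_apply_right,
        ht1 a₂ (Ne.symm h12) (Ne.symm h21)]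
    have hτ'x : ∀ x, τ' x ≠ x → τ' x = τ x := by
      intro x hx
      have x1 : x ≠ a₁ := by rintro rfl; exact hx hτ'a1
      have x2 : x ≠ b₁ := by rintro rfl; exact hx hτ'b1
      have x3 : x ≠ a₂ := by rintro rfl; exact hx hτ'a2
      have x4 : x ≠ b₂ := by rintro rfl; exact hx hτ'b2
      rw [hτ', Equiv.Perm.mul_apply, Equiv.Perm.mul_apply, ht2 x x3 x4, ht1 x x1 x2]
    have hsub : τ'.support ⊆ τ.support.erase a₁ := by
      intro x hx
      rw [Equiv.Perm.mem_support] at hx
      rw [Finset.mem_erase, Equiv.Perm.mem_support]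
      refine ⟨?_, ?_⟩
      · rintro rfl; exact hx hτ'a1
      · rw [← hτ'x x hx]; exact hx
    have hcard : τ'.support.card ≤ k := by
      have h1 := Finset.card_le_card hsub
      rw [Finset.card_erase_of_mem (Equiv.Perm.mem_support.mpr ha₁)] at h1
      omega
    have hτ'τ' : τ' * τ' = 1 := by
      rw [hτ']
      calc τ * t * t' * (τ * t * t') = τ * t * (t' * τ) * t * t' := by group
        _ = τ * t * (τ * t') * t * t' := by rw [hτt']
        _ = τ * (t * τ) * t' * t * t' := by group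
        _ = τ * (τ * t) * t' * t * t' := by rw [hτt]
        _ = (τ * τ) * t * (t' * t) * t' := by group
        _ = (τ * τ) * t * (t * t') * t' := by rw [htt']
        _ = (τ * τ) * (t * t) * (t' * t') := by group
        _ = 1 := by rw [hττ, htt, ht't', one_mul, one_mul]
    have hsτ' : sign τ' = 1 := by
      rw [hτ', map_mul, map_mul, hs, ht, ht', Equiv.Perm.sign_swap h11, Equiv.Perm.sign_swap h22]
      rfl
    have hagτ' : ∀ x, τ' x ≠ x → τ' x = σ x := by
      intro x hx
      rw [hτ'x x hx]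
      apply hag
      rw [← hτ'x x hx]; exact hx
    have := ih τ' hcard hτ'τ' hsτ' hagτ'
    rw [hτ'val]
    exact N.mul_mem this hmem

/-- A non-identity even involution of `Sym(m)`, `m ≥ 6`, is a product of commutators of even
permutations commuting with it. -/
theorem alt_key (hm : 6 ≤ m) (σ : Perm (Fin m)) (hσ : σ * σ = 1) (hev : sign σ = 1)
    (N : Subgroup (Perm (Fin m)))
    (hN : ∀ a b : Perm (Fin m), sign a = 1 → sign b = 1 → Commute a σ → Commute b σ → ⁅a, b⁆ ∈ N) :
    σ ∈ N :=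
  alt_key_aux hm σ hσ N hN _ σ le_rfl hσ hev (fun _ _ => rfl)

lemma alt_small (hm : m ≤ 3) (σ : Perm (Fin m)) (hσ : σ * σ = 1) (hev : sign σ = 1) : σ = 1 := by
  interval_cases m
  · revert σ; decide
  · revert σ; decide
  · revert σ; decide
  · revert σ; decide

end Alt

section Main

variable {G : Type*} [Group G]

lemma mem_C {J : G} (hJ2 : J * J = 1) {T : Subgroup G} (hcomm : ∀ t ∈ T, J * t = t * J) (x : G)
    (hx : x ∈ Subgroup.zpowers J ⊔ T) : x ∈ T ∨ J * x ∈ T := by
  have hcomm' : ∀ a : G, (a ∈ T ∨ J * a ∈ T) → J * a = a * J := by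
    rintro a (h | h)
    · exact hcomm a h
    · have h' := hcomm _ h
      have ha : J⁻¹ = J := inv_eq_of_mul_eq_one_left hJ2
      have e : a = J * (J * a) := by rw [← mul_assoc, hJ2, one_mul]
      calc J * a = J * (J * (J * a)) := by rw [← e]
        _ = J * ((J * a) * J) := by rw [h']
        _ = (J * (J * a)) * J := by group
        _ = a * J := by rw [← e]
  let H : Subgroup G :=
    { carrier := {a | a ∈ T ∨ J * a ∈ T}
      mul_mem' := by
        intro a b ha hb
        simp only [Set.mem_setOf_eq] at ha hb ⊢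
        have hca := hcomm' a ha
        rcases ha with ha | ha <;> rcases hb with hb | hb
        · exact Or.inl (T.mul_mem ha hb)
        · right
          have : J * (a * b) = a * (J * b) := by rw [← mul_assoc, hca, mul_assoc]
          rw [this]; exact T.mul_mem ha hb
        · right
          have : J * (a * b) = (J * a) * b := by rw [mul_assoc]
          rw [this]; exact T.mul_mem ha hb
        · left
          have : a * b = (J * a) * (J * b) := by
            calc a * b = (J * J) * a * b := by rw [hJ2, one_mul]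
              _ = J * (J * a) * b := by group
              _ = J * (a * J) * b := by rw [hca]
              _ = (J * a) * (J * b) := by group
          rw [this]; exact T.mul_mem ha hb
      one_mem' := Or.inl T.one_mem
      inv_mem' := by
        intro a ha
        simp only [Set.mem_setOf_eq] at ha ⊢
        have hca := hcomm' a ha
        rcases ha with ha | ha
        · exact Or.inl (T.inv_mem ha)
        · right
          have ij : J⁻¹ = J := inv_eq_of_mul_eq_one_left hJ2
          have : J * a⁻¹ = (J * a)⁻¹ := by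
            rw [mul_inv_rev, ij]
            -- J a⁻¹ = a⁻¹ J
            have : a⁻¹ * (J * a) = J := by rw [hca]; group
            calc J * a⁻¹ = (a⁻¹ * (J * a)) * a⁻¹ := by rw [this]
              _ = a⁻¹ * (J * (a * a⁻¹)) := by group
              _ = a⁻¹ * J := by rw [mul_inv_cancel, mul_one]
          rw [this]; exact T.inv_mem ha }
  have hle : Subgroup.zpowers J ⊔ T ≤ H := by
    refine sup_le ?_ (fun t ht => Or.inl ht)
    rw [Subgroup.zpowers_le]
    right
    show J * J ∈ T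
    rw [hJ2]; exact T.one_mem
  exact hle hx

theorem m_eq_four_or_five {G : Type*} [Group G] [Finite G]
    (h2 : ∀ N : Subgroup G, N.Normal → N.index ≠ 2) (J : G) (hJ : Cfsg.IsTwoCentralInvolution J)
    (m : ℕ) (T : Subgroup G) (hT : Nonempty (↥T ≃* ↥(alternatingGroup (Fin m))))
    (hd : Cfsg.IsInternalDirectProduct (Subgroup.zpowers J) T (Subgroup.centralizer ({J} : Set G))) :
    m = 4 ∨ m = 5 := by
  classical
  obtain ⟨e⟩ := hT
  obtain ⟨hJo, P, hJP, hPc⟩ := hJ
  obtain ⟨d1, d2, d3, d4, d5⟩ := hd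
  have hJ2 : J * J = 1 := by
    have := pow_orderOf_eq_one J
    rwa [hJo, pow_two] at this
  have hJ1 : J ≠ 1 := by
    rintro rfl
    simp at hJo
  have hJinv : J⁻¹ = J := inv_eq_of_mul_eq_one_left hJ2
  have hcomm : ∀ t ∈ T, J * t = t * J := fun t ht => d3 J (Subgroup.mem_zpowers J) t ht
  have hJT : J ∉ T := by
    intro h
    have : J ∈ Subgroup.zpowers J ⊓ T := ⟨Subgroup.mem_zpowers J, h⟩
    rw [d4] at this
    exact hJ1 (Subgroup.mem_bot.mp this)
  have hC : ∀ x, x ∈ Subgroup.centralizer ({J} : Set G) → x ∈ T ∨ J * x ∈ T := by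
    intro x hx
    rw [← d5] at hx
    exact mem_C hJ2 hcomm x hx
  have hCJ : ∀ x, x * J = J * x → x ∈ Subgroup.centralizer ({J} : Set G) := by
    intro x hx
    rw [Subgroup.mem_centralizer_iff]
    intro y hy
    rw [Set.mem_singleton_iff] at hy
    rw [hy]; exact hx.symm
  have hPC : ∀ x ∈ (P : Subgroup G), x ∈ T ∨ J * x ∈ T := fun x hx => hC x (hCJ x (hPc x hx))
  -- index two in `P`
  have hidx : ((P : Subgroup G) ⊓ T).relIndex (P : Subgroup G) = 2 := by
    rw [Subgroup.relIndex, Subgroup.index_eq_two_iff]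
    refine ⟨⟨J, hJP⟩, ?_⟩
    rintro ⟨b, hb⟩
    simp only [Subgroup.mem_subgroupOf, Subgroup.mem_inf, Subgroup.coe_mul, hb, true_and,
      P.1.mul_mem hb hJP]
    rcases hPC b hb with h | h
    · right
      refine ⟨h, fun h' => hJT ?_⟩
      have : J = b⁻¹ * (b * J) := by group
      rw [this]; exact T.mul_mem (T.inv_mem h) h'
    · left
      have e1 : b * J = J * b := (hPc b hb)
      refine ⟨by rw [e1]; exact h, fun h' => hJT ?_⟩
      have : J = (J * b) * b⁻¹ := by group
      rw [this]; exact T.mul_mem h (T.inv_mem h')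
  obtain ⟨M, hM1, hM2, -⟩ | ⟨g, hg⟩ := Cfsg.Agent.S0111.result P ((P : Subgroup G) ⊓ T) inf_le_left
      hidx J hJo hJP (fun h => hJT h.2)
  · exact absurd hM2 (h2 M hM1)
  set u := g * J * g⁻¹ with hu
  have huT : u ∈ T := hg.2
  have hu2 : u * u = 1 := by
    rw [hu]
    calc g * J * g⁻¹ * (g * J * g⁻¹) = g * (J * J) * g⁻¹ := by group
      _ = 1 := by rw [hJ2]; group
  have hu1 : u ≠ 1 := by
    intro h
    apply hJ1
    have : J = g⁻¹ * u * g := by rw [hu]; group
    rw [this, h]; group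
  let σ₀ : alternatingGroup (Fin m) := e ⟨u, huT⟩
  let σ : Perm (Fin m) := σ₀
  have hσ : σ * σ = 1 := by
    have h1 : (⟨u, huT⟩ : T) * ⟨u, huT⟩ = 1 := Subtype.ext hu2
    have h2' : σ₀ * σ₀ = 1 := by
      show e _ * e _ = 1
      rw [← map_mul, h1, map_one]
    exact congrArg Subtype.val h2'
  have hev : sign σ = 1 := σ₀.2
  have hσ1 : σ ≠ 1 := by
    intro h
    have h1 : σ₀ = 1 := Subtype.ext h
    have h3 : (⟨u, huT⟩ : T) = 1 := by
      apply e.injective
      rw [map_one]; exact h1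
    exact hu1 (congrArg Subtype.val h3)
  -- the small cases
  have hm4 : 4 ≤ m := by
    by_contra hlt
    exact hσ1 (alt_small (by omega) σ hσ hev)
  -- the large cases
  have hm6 : m < 6 := by
    by_contra hlt
    have hm : 6 ≤ m := by omega
    let W : Subgroup G := T.map (MulAut.conj g).toMonoidHom
    let φ : alternatingGroup (Fin m) →* G := T.subtype.comp e.symm.toMonoidHom
    let NA : Subgroup (alternatingGroup (Fin m)) := W.comap φ
    let N : Subgroup (Perm (Fin m)) := NA.map (alternatingGroup (Fin m)).subtype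
    have hφσ : φ σ₀ = u := by
      show ((e.symm (e ⟨u, huT⟩) : T) : G) = u
      rw [MulEquiv.symm_apply_apply]
    have hcommW : ∀ x y : G, Commute x u → Commute y u → ⁅x, y⁆ ∈ W := by
      intro x y hx hy
      -- conjugate back
      have conj_mem : ∀ z : G, Commute z u → g⁻¹ * z * g ∈ T ∨ J * (g⁻¹ * z * g) ∈ T := by
        intro z hz
        apply hC
        apply hCJ
        have hz' : z * u = u * z := hz
        rw [hu] at hz'
        calc g⁻¹ * z * g * J = g⁻¹ * (z * (g * J * g⁻¹)) * g := by group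
          _ = g⁻¹ * ((g * J * g⁻¹) * z) * g := by rw [hz']
          _ = J * (g⁻¹ * z * g) := by group
      have com_J : ∀ z : G, Commute z u → J * (g⁻¹ * z * g) = (g⁻¹ * z * g) * J := by
        intro z hz
        have hz' : z * u = u * z := hz
        rw [hu] at hz'
        calc J * (g⁻¹ * z * g) = g⁻¹ * ((g * J * g⁻¹) * z) * g := by group
          _ = g⁻¹ * (z * (g * J * g⁻¹)) * g := by rw [hz']
          _ = (g⁻¹ * z * g) * J := by group
      set X := g⁻¹ * x * g with hX
      set Y := g⁻¹ * y * g with hY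
      have hJX := com_J x hx
      have hJY := com_J y hy
      rw [← hX] at hJX
      rw [← hY] at hJY
      have hcXY : ⁅X, Y⁆ ∈ T := by
        have hX' : (X ∈ T ∨ J * X ∈ T) := conj_mem x hx
        have hY' : (Y ∈ T ∨ J * Y ∈ T) := conj_mem y hy
        have e1 : ⁅J * X, Y⁆ = ⁅X, Y⁆ := by
          rw [commutatorElement_def, commutatorElement_def, mul_inv_rev, hJinv]
          calc J * X * Y * (X⁻¹ * J) * Y⁻¹ = J * (X * Y * X⁻¹) * J * Y⁻¹ := by group
            _ = J * (X * (Y * X⁻¹ * J)) * Y⁻¹ := by group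
            _ = J * (X * (Y * (X⁻¹ * J))) * Y⁻¹ := by group
            _ = _ := by
              have hXi : X⁻¹ * J = J * X⁻¹ := by
                calc X⁻¹ * J = X⁻¹ * (J * X) * X⁻¹ := by group
                  _ = X⁻¹ * (X * J) * X⁻¹ := by rw [hJX]
                  _ = J * X⁻¹ := by group
              rw [hXi]
              calc J * (X * (Y * (J * X⁻¹))) * Y⁻¹ = J * (X * ((Y * J) * X⁻¹)) * Y⁻¹ := by group
                _ = J * (X * ((J * Y) * X⁻¹)) * Y⁻¹ := by rw [hJY]
                _ = J * (X * J * Y * X⁻¹) * Y⁻¹ := by group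
                _ = J * ((J * X) * Y * X⁻¹) * Y⁻¹ := by rw [hJX]
                _ = (J * J) * (X * Y * X⁻¹ * Y⁻¹) := by group
                _ = _ := by rw [hJ2, one_mul]
        have e2 : ∀ Z, J * Z = Z * J → ⁅Z, J * Y⁆ = ⁅Z, Y⁆ := by
          intro Z hZ
          have hZi : Z⁻¹ * J = J * Z⁻¹ := by
            calc Z⁻¹ * J = Z⁻¹ * (J * Z) * Z⁻¹ := by group
              _ = Z⁻¹ * (Z * J) * Z⁻¹ := by rw [hZ]
              _ = J * Z⁻¹ := by group
          rw [commutatorElement_def, commutatorElement_def, mul_inv_rev, hJinv]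
          calc Z * (J * Y) * Z⁻¹ * (Y⁻¹ * J) = (Z * J) * Y * Z⁻¹ * Y⁻¹ * J := by group
            _ = (J * Z) * Y * Z⁻¹ * Y⁻¹ * J := by rw [hZ]
            _ = J * (Z * Y * Z⁻¹ * Y⁻¹ * J) := by group
            _ = J * (Z * Y * (Z⁻¹ * (Y⁻¹ * J))) := by group
            _ = J * (Z * Y * (Z⁻¹ * (J * Y⁻¹))) := by
                have hYi : Y⁻¹ * J = J * Y⁻¹ := by
                  calc Y⁻¹ * J = Y⁻¹ * (J * Y) * Y⁻¹ := by group
                    _ = Y⁻¹ * (Y * J) * Y⁻¹ := by rw [hJY]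
                    _ = J * Y⁻¹ := by group
                rw [hYi]
            _ = J * (Z * Y * ((Z⁻¹ * J) * Y⁻¹)) := by group
            _ = J * (Z * Y * ((J * Z⁻¹) * Y⁻¹)) := by rw [hZi]
            _ = J * (Z * (Y * J) * Z⁻¹ * Y⁻¹) := by group
            _ = J * (Z * (J * Y) * Z⁻¹ * Y⁻¹) := by rw [hJY]
            _ = J * ((Z * J) * Y * Z⁻¹ * Y⁻¹) := by group
            _ = J * ((J * Z) * Y * Z⁻¹ * Y⁻¹) := by rw [hZ]
            _ = (J * J) * (Z * Y * Z⁻¹ * Y⁻¹) := by group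
            _ = _ := by rw [hJ2, one_mul]
        have hbase : ∀ A B : G, A ∈ T → B ∈ T → ⁅A, B⁆ ∈ T := by
          intro A B hA hB
          rw [commutatorElement_def]
          exact T.mul_mem (T.mul_mem (T.mul_mem hA hB) (T.inv_mem hA)) (T.inv_mem hB)
        rcases hX' with hXT | hXT <;> rcases hY' with hYT | hYT
        · exact hbase X Y hXT hYT
        · rw [← e2 X hJX]; exact hbase _ _ hXT hYT
        · rw [← e1]; exact hbase _ _ hXT hYT
        · rw [← e1, ← e2 (J * X) (by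
            calc J * (J * X) = J * (X * J) := by rw [hJX]
              _ = (J * X) * J := by group)]
          exact hbase _ _ hXT hYT
      refine ⟨⁅X, Y⁆, hcXY, ?_⟩
      show g * ⁅X, Y⁆ * g⁻¹ = ⁅x, y⁆
      rw [hX, hY, commutatorElement_def, commutatorElement_def]
      group
    have hN : ∀ a b : Perm (Fin m), sign a = 1 → sign b = 1 → Commute a σ → Commute b σ →
        ⁅a, b⁆ ∈ N := by
      intro a b ha hb hca hcb
      let a' : alternatingGroup (Fin m) := ⟨a, ha⟩
      let b' : alternatingGroup (Fin m) := ⟨b, hb⟩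
      have comm_of : ∀ c' : alternatingGroup (Fin m), Commute (c' : Perm (Fin m)) σ →
          Commute (φ c') u := by
        intro c' hc'
        have h1 : Commute c' σ₀ := Subtype.ext hc'
        have h2' := h1.map φ
        rwa [hφσ] at h2'
      have hw : ⁅φ a', φ b'⁆ ∈ W := hcommW _ _ (comm_of a' hca) (comm_of b' hcb)
      refine ⟨⁅a', b'⁆, ?_, rfl⟩
      show φ ⁅a', b'⁆ ∈ W
      rw [map_commutatorElement]
      exact hw
    have hσN : σ ∈ N := alt_key hm σ hσ hev N hN
    obtain ⟨s, hs, hsσ⟩ := hσN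
    have hs' : s = σ₀ := Subtype.ext hsσ
    have huW : u ∈ W := by
      rw [← hφσ, ← hs']
      exact hs
    obtain ⟨t, ht, htu⟩ := huW
    have : t = J := by
      have h1 : g * t * g⁻¹ = g * J * g⁻¹ := htu
      have h3 : g⁻¹ * (g * t * g⁻¹) * g = g⁻¹ * (g * J * g⁻¹) * g := by rw [h1]
      simpa [mul_assoc] using h3
    exact hJT (this ▸ ht)
  omega

end Main

end Cfsg.Agent.Lib.CJ2Am
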