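import Mathlib
import Cfsg.Prelude.Def_SporadicB
import Cfsg.Prelude.Def_TwoFusion
import Cfsg.Agent.Lib.CJ2Am.AFacts
import Cfsg.Agent.Lib.CJ2Am.KSimple

/-!
# The local situation `C(J) = ⟨J⟩ × T`, with `T ≃ A`
-/

set_option autoImplicit false
set_option linter.style.haveILetI false
set_option linter.unusedSectionVars false
set_option linter.unusedVariables false

namespace Cfsg.Agent.Lib.CJ2Am

variable {G : Type*} [Group G] [Finite G] {A : Type*} [Group A]

/-- The hypotheses. -/
structure Setup (J : G) (T : Subgroup G) (φ : T ≃* A) (P : Sylow 2 G) : Prop where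
  ordJ : orderOf J = 2
  JP : J ∈ (P : Subgroup G)
  Jc : ∀ x ∈ (P : Subgroup G), x * J = J * x
  hd : Cfsg.IsInternalDirectProduct (Subgroup.zpowers J) T (Subgroup.centralizer ({J} : Set G))
  fa : AFacts A
  cardA : Nat.card A = 12 ∨ Nat.card A = 60
  h2 : ∀ N : Subgroup G, N.Normal → N.index ≠ 2

variable {J : G} {T : Subgroup G} {φ : T ≃* A} {P : Sylow 2 G}

namespace Setup

theorem J_sq (hS : Setup J T φ P) : J * J = 1 := by
  have := pow_orderOf_eq_one J
  rw [hS.ordJ, sq] at this
  exact this

theorem J_inv (hS : Setup J T φ P) : J⁻¹ = J := inv_eq_of_mul_eq_one_left hS.J_sq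

theorem J_comm (hS : Setup J T φ P) {t : G} (ht : t ∈ T) : J * t = t * J :=
  hS.hd.2.2.1 J (Subgroup.mem_zpowers J) t ht

theorem J_not_mem (hS : Setup J T φ P) : J ∉ T := by
  intro h
  have h1 : J ∈ Subgroup.zpowers J ⊓ T := Subgroup.mem_inf.mpr ⟨Subgroup.mem_zpowers J, h⟩
  rw [hS.hd.2.2.2.1, Subgroup.mem_bot] at h1
  rw [h1] at hS
  have := hS.ordJ
  simp at this

/-- The subgroup `T ∪ JT`. -/
def AA (hS : Setup J T φ P) : Subgroup G where
  carrier := {x | x ∈ T ∨ J * x ∈ T}
  mul_mem' := by
    rintro x y (hx | hx) (hy | hy)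
    · exact Or.inl (mul_mem hx hy)
    · right
      have : J * (x * y) = x * (J * y) := by
        rw [← mul_assoc, hS.J_comm hx, mul_assoc]
      rw [this]
      exact mul_mem hx hy
    · right
      have : J * (x * y) = (J * x) * y := by rw [mul_assoc]
      rw [this]
      exact mul_mem hx hy
    · left
      have : x * y = (J * x) * (J * y) := by
        have h1 : J * x = x * J := by
          have h2 := hS.J_comm hx
          have h3 : J * (J * x) = J * x * J := h2
          calc J * x = J * (J * (J * x)) := by rw [← mul_assoc, hS.J_sq, one_mul]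
            _ = J * (J * x * J) := by rw [h3]
            _ = (J * J) * x * J := by group
            _ = x * J := by rw [hS.J_sq, one_mul]
        calc x * y = x * (J * J) * y := by rw [hS.J_sq, mul_one]
          _ = (x * J) * J * y := by group
          _ = (J * x) * J * y := by rw [h1]
          _ = (J * x) * (J * y) := by group
      rw [this]
      exact mul_mem hx hy
  one_mem' := Or.inl (one_mem T)
  inv_mem' := by
    rintro x (hx | hx)
    · exact Or.inl (inv_mem hx)
    · right
      have h1 := inv_mem hx
      have h2 := hS.J_comm h1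
      have h3 : J * x⁻¹ = (J * x)⁻¹ := by
        rw [mul_inv_rev, hS.J_inv]
        have h4 : (J * x)⁻¹ = x⁻¹ * J := by rw [mul_inv_rev, hS.J_inv]
        rw [h4] at h2
        have h5 : J * (x⁻¹ * J) = x⁻¹ * J * J := h2
        calc J * x⁻¹ = J * (x⁻¹ * J) * J := by
              rw [mul_assoc, mul_assoc, hS.J_sq, mul_one]
          _ = x⁻¹ * J * J * J := by rw [h5]
          _ = x⁻¹ * J := by
              rw [mul_assoc (x⁻¹ * J), hS.J_sq, mul_one]
      rw [h3]
      exact h1

theorem mem_C (hS : Setup J T φ P) (x : G) :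
    x ∈ Subgroup.centralizer ({J} : Set G) ↔ x ∈ T ∨ J * x ∈ T := by
  constructor
  · intro hx
    have hle : Subgroup.centralizer ({J} : Set G) ≤ hS.AA := by
      rw [← hS.hd.2.2.2.2]
      refine sup_le ?_ ?_
      · rw [Subgroup.zpowers_le]
        right
        rw [hS.J_sq]
        exact one_mem T
      · intro t ht
        exact Or.inl ht
    exact hle hx
  · have hJC : J ∈ Subgroup.centralizer ({J} : Set G) :=
      hS.hd.1 (Subgroup.mem_zpowers J)
    rintro (hx | hx)
    · exact hS.hd.2.1 hx
    · have h := mul_mem (inv_mem hJC) (hS.hd.2.1 hx)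
      simpa using h

theorem C_comm (hS : Setup J T φ P) {x : G} (hx : x ∈ Subgroup.centralizer ({J} : Set G)) :
    x * J = J * x := Subgroup.mem_centralizer_singleton_iff.mp hx

theorem P_le_C (hS : Setup J T φ P) : (P : Subgroup G) ≤ Subgroup.centralizer ({J} : Set G) := by
  intro x hx
  exact Subgroup.mem_centralizer_singleton_iff.mpr (hS.Jc x hx)

/-- `C(J) ≃ C₂ × A`. -/
theorem exists_equiv (hS : Setup J T φ P) :
    Nonempty (Subgroup.centralizer ({J} : Set G) ≃* Multiplicative (ZMod 2) × A) := by
  classical
  have hm : ∀ x : Subgroup.centralizer ({J} : Set G), (x : G) ∉ T → J * (x : G) ∈ T := by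
    intro x hx
    exact ((hS.mem_C x).mp x.2).resolve_left hx
  let F : Subgroup.centralizer ({J} : Set G) → Multiplicative (ZMod 2) × A := fun x =>
    if h : (x : G) ∈ T then (Multiplicative.ofAdd 0, φ ⟨x, h⟩)
    else (Multiplicative.ofAdd 1, φ ⟨J * x, hm x h⟩)
  have hF1 : ∀ (x : Subgroup.centralizer ({J} : Set G)) (h : (x : G) ∈ T),
      F x = (Multiplicative.ofAdd 0, φ ⟨x, h⟩) := fun x h => dif_pos h
  have hF2 : ∀ (x : Subgroup.centralizer ({J} : Set G)) (h : (x : G) ∉ T),
      F x = (Multiplicative.ofAdd 1, φ ⟨J * x, hm x h⟩) := fun x h => dif_neg h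
  have hmul : ∀ x y, F (x * y) = F x * F y := by
    intro x y
    by_cases hx : (x : G) ∈ T <;> by_cases hy : (y : G) ∈ T
    · have hxy : ((x * y : Subgroup.centralizer ({J} : Set G)) : G) ∈ T := mul_mem hx hy
      rw [hF1 _ hxy, hF1 _ hx, hF1 _ hy]
      refine Prod.ext rfl ?_
      change φ _ = φ _ * φ _
      rw [← map_mul]
      rfl
    · have hxy : ((x * y : Subgroup.centralizer ({J} : Set G)) : G) ∉ T := by
        intro h
        apply hy
        have := mul_mem (inv_mem hx) h
        simpa using this
      rw [hF2 _ hxy, hF1 _ hx, hF2 _ hy]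
      refine Prod.ext rfl ?_
      change φ _ = φ _ * φ _
      rw [← map_mul]
      congr 1
      apply Subtype.ext
      change J * ((x : G) * y) = x * (J * y)
      rw [← mul_assoc, hS.J_comm hx, mul_assoc]
    · have hxy : ((x * y : Subgroup.centralizer ({J} : Set G)) : G) ∉ T := by
        intro h
        apply hx
        have := mul_mem h (inv_mem hy)
        simpa using this
      rw [hF2 _ hxy, hF2 _ hx, hF1 _ hy]
      refine Prod.ext rfl ?_
      change φ _ = φ _ * φ _
      rw [← map_mul]
      congr 1
      apply Subtype.ext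
      change J * ((x : G) * y) = (J * x) * y
      rw [mul_assoc]
    · have hJx := hS.C_comm x.2
      have hxy : ((x * y : Subgroup.centralizer ({J} : Set G)) : G) ∈ T := by
        have : ((x : G) * y) = (J * x) * (J * y) := by
          calc (x : G) * y = x * (J * J) * y := by rw [hS.J_sq, mul_one]
            _ = (x * J) * J * y := by group
            _ = (J * x) * J * y := by rw [hJx]
            _ = (J * x) * (J * y) := by group
        change (x : G) * y ∈ T
        rw [this]
        exact mul_mem (hm x hx) (hm y hy)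
      rw [hF1 _ hxy, hF2 _ hx, hF2 _ hy]
      have h11 : (Multiplicative.ofAdd 1 : Multiplicative (ZMod 2)) * Multiplicative.ofAdd 1 =
          Multiplicative.ofAdd 0 := by decide
      refine Prod.ext h11.symm ?_
      change φ _ = φ _ * φ _
      rw [← map_mul]
      congr 1
      apply Subtype.ext
      change (x : G) * y = (J * x) * (J * y)
      calc (x : G) * y = x * (J * J) * y := by rw [hS.J_sq, mul_one]
        _ = (x * J) * J * y := by group
        _ = (J * x) * J * y := by rw [hJx]
        _ = (J * x) * (J * y) := by group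
  have hinj : Function.Injective F := by
    intro x y hxy
    by_cases hx : (x : G) ∈ T <;> by_cases hy : (y : G) ∈ T
    · rw [hF1 _ hx, hF1 _ hy] at hxy
      have := φ.injective (congrArg Prod.snd hxy)
      have h2 : (x : G) = y := Subtype.mk.inj this
      exact Subtype.ext h2
    · rw [hF1 _ hx, hF2 _ hy] at hxy
      have h01 : (Multiplicative.ofAdd 0 : Multiplicative (ZMod 2)) ≠ Multiplicative.ofAdd 1 := by
        decide
      exact absurd (congrArg Prod.fst hxy) h01
    · rw [hF2 _ hx, hF1 _ hy] at hxy
      have h01 : (Multiplicative.ofAdd 1 : Multiplicative (ZMod 2)) ≠ Multiplicative.ofAdd 0 := by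
        decide
      exact absurd (congrArg Prod.fst hxy) h01
    · rw [hF2 _ hx, hF2 _ hy] at hxy
      have := φ.injective (congrArg Prod.snd hxy)
      have h2 : J * (x : G) = J * y := congrArg Subtype.val this
      exact Subtype.ext (mul_left_cancel h2)
  have hsurj : Function.Surjective F := by
    rintro ⟨ε, a⟩
    have hT := (φ.symm a).2
    have hφ : φ ⟨(φ.symm a : G), hT⟩ = a := by simp
    have hε : ε = Multiplicative.ofAdd 0 ∨ ε = Multiplicative.ofAdd 1 := by
      revert ε
      decide
    rcases hε with rfl | rfl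
    · refine ⟨⟨(φ.symm a : G), hS.hd.2.1 hT⟩, ?_⟩
      rw [hF1 _ hT]
      exact Prod.ext rfl hφ
    · have hJt : J * (φ.symm a : G) ∈ Subgroup.centralizer ({J} : Set G) :=
        (hS.mem_C _).mpr (Or.inr (by rw [← mul_assoc, hS.J_sq, one_mul]; exact hT))
      have hn : J * (φ.symm a : G) ∉ T := by
        intro h
        apply hS.J_not_mem
        have := mul_mem h (inv_mem hT)
        simpa using this
      refine ⟨⟨_, hJt⟩, ?_⟩
      rw [hF2 ⟨_, hJt⟩ hn]
      refine Prod.ext rfl ?_
      have hq : ∀ (h : J * (J * (φ.symm a : G)) ∈ T), φ ⟨J * (J * (φ.symm a : G)), h⟩ = a := by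
        intro h
        have : (⟨J * (J * (φ.symm a : G)), h⟩ : T) = φ.symm a :=
          Subtype.ext (by
            change J * (J * (φ.symm a : G)) = (φ.symm a : G)
            rw [← mul_assoc, hS.J_sq, one_mul])
        rw [this]
        simp
      exact hq _
  exact ⟨MulEquiv.ofBijective (MonoidHom.mk' F hmul) ⟨hinj, hsurj⟩⟩

theorem card_C (hS : Setup J T φ P) :
    Nat.card (Subgroup.centralizer ({J} : Set G)) = 2 * Nat.card A := by
  obtain ⟨e⟩ := hS.exists_equiv
  rw [Nat.card_congr e.toEquiv, Nat.card_prod, Nat.card_congr Multiplicative.toAdd]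
  simp

end Setup

end Cfsg.Agent.Lib.CJ2Am
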